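/-
Determinants of centralisers in `GL_n(q)` through the primary cyclic decomposition: the centraliser
of `g` has all `e`-th powers among its determinants, `e` any exponent of an elementary divisor.
-/
import Cfsg.Agent.H66.Semisimple

set_option autoImplicit false

open Polynomial Module

namespace Cfsg.Agent.H62

open Cfsg.Agent.H66

universe u

variable {K : Type u} [Field K] [Finite K]

/-- Some unit of `K[X] ⧸ (p ^ e)` has determinant `c ^ e` as a multiplication. -/
theorem exists_det_lsmul_eq_pow {p : K[X]} (hm : p.Monic) (hp : Irreducible p) (e : ℕ) (c : K) :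
    ∃ φ : K[X], LinearMap.det (Algebra.lsmul K K (CycMod (p ^ e)) φ) = c ^ e := by
  classical
  have := Fintype.ofFinite K
  rcases Nat.eq_zero_or_pos e with rfl | he
  · refine ⟨1, ?_⟩
    rw [map_one, LinearMap.det.map_one, pow_zero]
  have := Fact.mk hp
  have hfdR := finiteDimensional_cycMod (hm.pow e)
  have : Nontrivial (CycMod (p ^ e)) := by
    refine Ideal.Quotient.nontrivial_iff.2 fun h => ?_
    rw [Ideal.span_singleton_eq_top, isUnit_pow_iff he.ne'] at h
    exact hp.not_isUnit h
  -- a root of `p`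
  set r : CycMod (p ^ e) := Ideal.Quotient.mk _ (X ^ Fintype.card K ^ e) with hr
  have hexp : ∀ k : ℕ, expand K (Fintype.card K ^ k) p = p ^ Fintype.card K ^ k := by
    intro k
    induction k with
    | zero => simp
    | succ k ih =>
      rw [pow_succ, mul_comm, expand_mul, ih, map_pow, FiniteField.expand_card, ← pow_mul]
  have hroot : aeval r p = 0 := by
    rw [hr, ← Ideal.Quotient.mkₐ_eq_mk K, aeval_algHom_apply, ← comp_eq_aeval, ← expand_eq_comp_X_pow,
      hexp, Ideal.Quotient.mkₐ_eq_mk, Ideal.Quotient.eq_zero_iff_dvd]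
    exact pow_dvd_pow _ (Nat.lt_pow_self Fintype.one_lt_card).le
  let φ : AdjoinRoot p →ₐ[K] CycMod (p ^ e) := AdjoinRoot.liftAlgHom p (Algebra.ofId K _) r hroot
  let := φ.toRingHom.toAlgebra
  have htower : IsScalarTower K (AdjoinRoot p) (CycMod (p ^ e)) :=
    IsScalarTower.of_algebraMap_eq fun x => (φ.commutes x).symm
  have : Module.Finite (AdjoinRoot p) (CycMod (p ^ e)) := Module.Finite.of_restrictScalars_finite K _ _
  have hfdL : FiniteDimensional K (AdjoinRoot p) := hm.finite_adjoinRoot
  have hdeg : Module.finrank (AdjoinRoot p) (CycMod (p ^ e)) = e := by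
    have h := Module.finrank_mul_finrank K (AdjoinRoot p) (CycMod (p ^ e))
    rw [(AdjoinRoot.powerBasis hp.ne_zero).finrank, AdjoinRoot.powerBasis_dim] at h
    have h2 : Module.finrank K (CycMod (p ^ e)) = p.natDegree * e := by
      show Module.finrank K (K[X] ⧸ Ideal.span {p ^ e}) = _
      rw [finrank_quotient_span_eq_natDegree, natDegree_pow, mul_comm]
    rw [h2] at h
    exact Nat.eq_of_mul_eq_mul_left hp.natDegree_pos h
  have : Finite (AdjoinRoot p) := Module.finite_of_finite K
  obtain ⟨x, hx⟩ := FiniteField.norm_surjective K (AdjoinRoot p) c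
  obtain ⟨ψ, hψ⟩ := Ideal.Quotient.mk_surjective (φ x)
  refine ⟨ψ, ?_⟩
  have heq : (Algebra.lsmul K K (CycMod (p ^ e)) ψ : CycMod (p ^ e) →ₗ[K] CycMod (p ^ e)) =
      (x • (LinearMap.id : CycMod (p ^ e) →ₗ[AdjoinRoot p] CycMod (p ^ e))).restrictScalars K := by
    refine LinearMap.ext fun v => ?_
    show ψ • v = x • v
    rw [Algebra.smul_def ψ v, Algebra.smul_def x v]
    exact congrArg (· * v) hψ
  rw [heq, LinearMap.det_restrictScalars, LinearMap.det_smul, LinearMap.det_id, mul_one, hdeg, map_pow, hx]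

/-- The centraliser has determinant `c ^ e i`. -/
theorem exists_commute_det_pow {V : Type*} [AddCommGroup V] [Module K V] [FiniteDimensional K V]
    {f : Module.End K V} {ι : Type*} [Fintype ι] {p : ι → K[X]} {e : ι → ℕ} (hf : IsDecomp f p e)
    (i₀ : ι) {c : K} (hc : c ≠ 0) :
    ∃ L : V ≃ₗ[K] V, (∀ v, L (f v) = f (L v)) ∧ LinearMap.det L.toLinearMap = c ^ e i₀ := by
  classical
  obtain ⟨E, hE⟩ := hf.equiv
  have hfd := fun i => finiteDimensional_cycMod ((hf.monic i).pow (e i))
  obtain ⟨a, ha⟩ := exists_det_lsmul_eq_pow (hf.monic i₀) (hf.irreducible i₀) (e i₀) c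
  let φ : ι → K[X] := Function.update 1 i₀ a
  let T : ∀ i, CycMod (p i ^ e i) →ₗ[K] CycMod (p i ^ e i) := fun i => Algebra.lsmul K K _ (φ i)
  have hdet : LinearMap.det (LinearMap.piMap T) = c ^ e i₀ := by
    rw [det_piMap_eq (fun i => Module.finBasis K _), Finset.prod_eq_single i₀]
    · simp only [T, φ, Function.update_self]
      exact ha
    · intro i _ hi
      have : T i = LinearMap.id := by
        refine LinearMap.ext fun v => ?_
        simp only [T, φ, Function.update_of_ne hi, Pi.one_apply, map_one]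
        rfl
      rw [this, LinearMap.det_id]
    · simp
  let M : V →ₗ[K] V := E.symm.toLinearMap ∘ₗ LinearMap.piMap T ∘ₗ E.toLinearMap
  have hM : LinearMap.det M = c ^ e i₀ := by
    rw [← hdet]
    exact LinearMap.det_conj (LinearMap.piMap T) E.symm
  refine ⟨LinearMap.equivOfDetNeZero M (hM ▸ pow_ne_zero _ hc), fun v => ?_, hM⟩
  apply E.injective
  have h1 := hE X v
  have h2 := hE X (M v)
  rw [aeval_X] at h1 h2
  change E (E.symm (LinearMap.piMap T (E (f v)))) = E (f (M v))
  rw [E.apply_symm_apply, h1, h2]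
  change _ = (X : K[X]) • E (E.symm (LinearMap.piMap T (E v)))
  rw [E.apply_symm_apply]
  funext i
  exact smul_comm (φ i) (X : K[X]) (E v i)

end Cfsg.Agent.H62
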