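/-
Parametrisation of `GL_n(q)` conjugacy classes by tuples of polynomials, with the determinant and the
determinants of the centraliser.
-/
import Cfsg.Agent.H62.ClassNumber.Det
import Cfsg.Agent.H66.ClassBound

set_option autoImplicit false

open Polynomial Module UniqueFactorizationMonoid

namespace Cfsg.Agent.H62.ClassNumber

open Cfsg.Agent.H66

universe u

variable {K : Type u} [Field K]

/-- The product of the constant terms, weighted by part size. -/
noncomputable def constProd {J n : ℕ} (T : ClassTuple K J n) : K :=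
  ∏ j : Fin J, (T.1 j).1.coeff 0 ^ ((j : ℕ) + 1)

/-- The part sizes occurring. -/
noncomputable def supp {J n : ℕ} (T : ClassTuple K J n) : Finset (Fin J) :=
  Finset.univ.filter fun j => (T.1 j).1.natDegree ≠ 0

/-- The gcd of the part sizes and `q - 1`. -/
noncomputable def gam [Fintype K] {J n : ℕ} (T : ClassTuple K J n) : ℕ :=
  Nat.gcd ((supp T).gcd fun j : Fin J => (j : ℕ) + 1) (Fintype.card K - 1)

/-- A subgroup containing all `a`-th powers for all `a` in a family contains all `gcd`-th powers. -/
theorem pow_gcd_mem {G : Type*} [CommGroup G] (D : Subgroup G) {α : Type*} (s : Finset α) (a : α → ℕ)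
    (h : ∀ i ∈ s, ∀ c : G, c ^ a i ∈ D) (m : ℕ) (hm : ∀ c : G, c ^ m ∈ D) (c : G) :
    c ^ Nat.gcd (s.gcd a) m ∈ D := by
  classical
  have two : ∀ x y : ℕ, (∀ c : G, c ^ x ∈ D) → (∀ c : G, c ^ y ∈ D) → ∀ c : G, c ^ Nat.gcd x y ∈ D := by
    intro x y hx hy c
    rw [← zpow_natCast, Nat.gcd_eq_gcd_ab, zpow_add, zpow_mul, zpow_mul]
    exact D.mul_mem (D.zpow_mem (by rw [zpow_natCast]; exact hx c) _) (D.zpow_mem (by rw [zpow_natCast]; exact hy c) _)
  induction s using Finset.induction_on generalizing m c with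
  | empty => simpa using hm c
  | insert i s _ ih =>
    rw [Finset.gcd_insert, show GCDMonoid.gcd (a i) (s.gcd a) = Nat.gcd (a i) (s.gcd a) from rfl,
      Nat.gcd_comm (a i), Nat.gcd_assoc]
    exact ih (fun j hj => h j (Finset.mem_insert_of_mem hj)) _
      (two _ _ (h i (Finset.mem_insert_self i s)) hm) c

variable [Fintype K] {n : ℕ}

/-- The tuple of an invertible matrix. -/
theorem exists_param (hn : 1 ≤ n) :
    ∃ P : GL (Fin n) K → ClassTuple K n n, (∀ g h, P g = P h → IsConj g h) ∧
      (∀ g : GL (Fin n) K, (g : Matrix (Fin n) (Fin n) K).det = (-1) ^ n * constProd (P g)) ∧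
      (∀ (g : GL (Fin n) K) (c : Kˣ), ∃ z : GL (Fin n) K, z * g = g * z ∧
        (z : Matrix (Fin n) (Fin n) K).det = ((c ^ gam (P g) : Kˣ) : K)) ∧
      ∀ (g : GL (Fin n) K), ∃ (ι : Type u) (_ : Fintype ι) (p : ι → K[X]) (e : ι → ℕ),
        IsDecomp (Matrix.toLin' (g : Matrix (Fin n) (Fin n) K)) p e ∧
        ∀ j : Fin n, ((P g).1 j).1 = ∏ i ∈ Finset.univ.filter (fun i => e i = (j : ℕ) + 1), p i := by
  classical
  have hdata : ∀ g : GL (Fin n) K, ∃ (ι : Type u) (_ : Fintype ι) (p : ι → K[X]) (e : ι → ℕ),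
      IsDecomp (Matrix.toLin' (g : Matrix (Fin n) (Fin n) K)) p e := fun g => exists_isDecomp _
  choose ι hι p e hdec using hdata
  have hsum : ∀ g, ∑ i, (p g i).natDegree * e g i = n := fun g => by
    have h := congrArg Polynomial.natDegree (hdec g).charpoly_eq
    rw [LinearMap.charpoly_natDegree, Module.finrank_pi, Fintype.card_fin,
      natDegree_prod_of_monic _ _ fun i _ => ((hdec g).monic i).pow _] at h
    rw [h]
    exact Finset.sum_congr rfl fun i _ => by rw [natDegree_pow, mul_comm]
  have hle : ∀ g i, e g i ≤ n := fun g i => by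
    refine le_trans ?_ (le_trans (Finset.single_le_sum (f := fun i => (p g i).natDegree * e g i)
      (fun i _ => Nat.zero_le _) (Finset.mem_univ i)) (hsum g).le)
    exact Nat.le_mul_of_pos_left _ ((hdec g).irreducible i).natDegree_pos
  have hp0 : ∀ g i, (p g i).coeff 0 ≠ 0 := fun g i h0 => by
    have hd : p g i ∣ (g : Matrix (Fin n) (Fin n) K).charpoly := by
      rw [← Matrix.charpoly_toLin', (hdec g).charpoly_eq]
      exact (dvd_pow_self _ (by have := (hdec g).pos i; omega)).trans
        (Finset.dvd_prod_of_mem (fun j => p g j ^ e g j) (Finset.mem_univ i))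
    obtain ⟨f, hf⟩ := hd
    have h := Matrix.det_eq_sign_charpoly_coeff (g : Matrix (Fin n) (Fin n) K)
    rw [hf, mul_coeff_zero, h0, zero_mul, mul_zero] at h
    exact Matrix.GeneralLinearGroup.det_ne_zero g h
  let P : ∀ g, Fin n → UPoly K := fun g j => ⟨∏ i with e g i = (j : ℕ) + 1, p g i,
    monic_prod_of_monic _ _ fun i _ => (hdec g).monic i, by
      rw [coeff_zero_eq_eval_zero, eval_prod]
      exact Finset.prod_ne_zero_iff.2 fun i _ => by rw [← coeff_zero_eq_eval_zero]; exact hp0 g i⟩
  let slot : ∀ g, ι g → Fin n := fun g i => ⟨e g i - 1, by have := hle g i; have := (hdec g).pos i; omega⟩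
  have hslot : ∀ g (i : ι g) (j : Fin n), slot g i = j ↔ e g i = (j : ℕ) + 1 := fun g i j => by
    have := (hdec g).pos i
    rw [Fin.ext_iff]
    show e g i - 1 = (j : ℕ) ↔ _
    omega
  have hmaps : ∀ g, ∀ i ∈ (Finset.univ : Finset (ι g)), slot g i ∈ (Finset.univ : Finset (Fin n)) :=
    fun g i _ => Finset.mem_univ _
  have hP : ∀ g, ∑ j : Fin n, ((j : ℕ) + 1) * (P g j).1.natDegree = n := fun g => by
    refine Eq.trans ?_ (hsum g)
    rw [← Finset.sum_fiberwise_of_maps_to (hmaps g) fun i => (p g i).natDegree * e g i]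
    refine Finset.sum_congr rfl fun j _ => ?_
    show ((j : ℕ) + 1) * (∏ i with e g i = (j : ℕ) + 1, p g i).natDegree = _
    rw [natDegree_prod_of_monic _ _ fun i _ => (hdec g).monic i, Finset.mul_sum]
    refine Finset.sum_congr (Finset.filter_congr fun i _ => (hslot g i j).symm) fun i hi => ?_
    rw [(hslot g i j).1 (Finset.mem_filter.1 hi).2, mul_comm]
  have hcount : ∀ g Q (j : Fin n), decompCount (p g) (e g) Q ((j : ℕ) + 1) =
      (normalizedFactors (P g j).1).count Q := fun g Q j => by
    show _ = (normalizedFactors (∏ i with e g i = (j : ℕ) + 1, p g i)).count Q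
    rw [Finset.prod_eq_multiset_prod, normalizedFactors_prod_eq _ (fun a ha => by
      obtain ⟨i, -, rfl⟩ := Multiset.mem_map.1 ha
      exact (hdec g).irreducible i), Multiset.map_map, Multiset.count_map, decompCount,
      Nat.card_eq_fintype_card, Fintype.card_subtype, ← Finset.filter_val, ← Finset.card_def, Finset.filter_filter]
    congr 1
    refine Finset.filter_congr fun i _ => ?_
    simp [((hdec g).monic i).normalize_eq_self, eq_comm, and_comm]
  refine ⟨fun g => ⟨P g, hP g⟩, fun g h hgh => ?_, fun g => ?_, fun g c => ?_,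
    fun g => ⟨ι g, hι g, p g, e g, hdec g, fun j => rfl⟩⟩
  · have heq : P g = P h := congrArg Subtype.val hgh
    obtain ⟨L, hL⟩ := exists_equiv_of_count_eq (hdec g) (hdec h) fun Q k => by
      rcases Nat.eq_zero_or_pos k with rfl | hk
      · have h1 : IsEmpty {i // p g i = Q ∧ e g i = 0} :=
          ⟨fun i => by have := (hdec g).pos i.1; omega⟩
        have h2 : IsEmpty {i // p h i = Q ∧ e h i = 0} :=
          ⟨fun i => by have := (hdec h).pos i.1; omega⟩
        simp [decompCount]
      rcases Nat.lt_or_ge n k with hk' | hk'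
      · have h1 : IsEmpty {i // p g i = Q ∧ e g i = k} :=
          ⟨fun i => by have := hle g i.1; omega⟩
        have h2 : IsEmpty {i // p h i = Q ∧ e h i = k} :=
          ⟨fun i => by have := hle h i.1; omega⟩
        simp [decompCount]
      · obtain ⟨j, rfl⟩ : ∃ j : Fin n, k = (j : ℕ) + 1 := ⟨⟨k - 1, by omega⟩, by simp only; omega⟩
        rw [hcount, hcount, heq]
    exact gl_isConj_iff.2 (isConj_of_equiv L fun v => hL v)
  · rw [Matrix.det_eq_sign_charpoly_coeff, Fintype.card_fin, ← Matrix.charpoly_toLin', (hdec g).charpoly_eq]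
    congr 1
    rw [coeff_zero_eq_eval_zero, eval_prod, ← Finset.prod_fiberwise_of_maps_to (hmaps g)]
    refine Finset.prod_congr rfl fun j _ => ?_
    show _ = (∏ i with e g i = (j : ℕ) + 1, p g i).coeff 0 ^ ((j : ℕ) + 1)
    rw [coeff_zero_eq_eval_zero, eval_prod, ← Finset.prod_pow]
    refine Finset.prod_congr (Finset.filter_congr fun i _ => hslot g i j) fun i hi => ?_
    rw [eval_pow, (Finset.mem_filter.1 hi).2]
  · have hmem : c ^ gam (⟨P g, hP g⟩ : ClassTuple K n n) ∈
        (Subgroup.centralizer ({g} : Set (GL (Fin n) K))).map Matrix.GeneralLinearGroup.det := by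
      refine pow_gcd_mem _ _ _ (fun j hj d => ?_) _ (fun d => ?_) c
      · obtain ⟨i, hi⟩ : ∃ i, e g i = (j : ℕ) + 1 := by
          by_contra hcon
          push Not at hcon
          refine (Finset.mem_filter.1 hj).2 ?_
          show (∏ i with e g i = (j : ℕ) + 1, p g i).natDegree = 0
          rw [Finset.filter_false_of_mem fun i _ => hcon i, Finset.prod_empty, natDegree_one]
        obtain ⟨L, hL, hd⟩ := exists_commute_det_pow (hdec g) i d.ne_zero
        have hM : (LinearMap.toMatrix' L.toLinearMap).det = (d : K) ^ ((j : ℕ) + 1) := by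
          rw [LinearMap.det_toMatrix', hd, hi]
        refine ⟨Matrix.GeneralLinearGroup.mkOfDetNeZero _ (hM ▸ pow_ne_zero _ d.ne_zero),
          Subgroup.mem_centralizer_singleton_iff.2 (Units.ext ?_), Units.ext ?_⟩
        · change LinearMap.toMatrix' L.toLinearMap * (g : Matrix (Fin n) (Fin n) K) =
            (g : Matrix (Fin n) (Fin n) K) * LinearMap.toMatrix' L.toLinearMap
          apply Matrix.toLin'.injective
          rw [Matrix.toLin'_mul, Matrix.toLin'_mul, Matrix.toLin'_toMatrix']
          exact LinearMap.ext fun v => hL v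
        · rw [Units.val_pow_eq_pow_val]
          exact hM
      · rw [← Fintype.card_units, pow_card_eq_one]
        exact Subgroup.one_mem _
    obtain ⟨z, hz, hzd⟩ := hmem
    exact ⟨z, Subgroup.mem_centralizer_singleton_iff.1 hz, congrArg Units.val hzd⟩

end Cfsg.Agent.H62.ClassNumber
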