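/-
Counting tuples of polynomials with a prescribed weighted product of constant terms.
-/
import Cfsg.Agent.H62.ClassNumber.Param

set_option autoImplicit false

open Polynomial

namespace Cfsg.Agent.H62.ClassNumber

open Cfsg.Agent.H66

universe u

variable {K : Type u} [Field K] [Fintype K]

local notation "q" => Fintype.card K

instance finite_classTuple {J n : ℕ} : Finite (ClassTuple K J n) := by
  rcases Nat.eq_zero_or_pos J with rfl | hJ
  · exact Finite.of_injective (fun T => T.1) Subtype.val_injective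
  · exact (classTuple_bounds (K := K) J hJ n).1

noncomputable instance fintype_classTuple {J n : ℕ} : Fintype (ClassTuple K J n) := Fintype.ofFinite _

/-- `∑ gam ^ 2` over all tuples. -/
noncomputable def weightSum (K : Type u) [Field K] [Fintype K] (n : ℕ) : ℕ :=
  ∑ T : ClassTuple K n n, gam T ^ 2

/-- `∑ gam` over the tuples with `constProd = a`. -/
noncomputable def fibreSum (n : ℕ) (a : K) : ℕ :=
  haveI := Classical.decEq K
  ∑ T ∈ (Finset.univ : Finset (ClassTuple K n n)) with constProd T = a, gam T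

/-- Multiply the constant term of a non-constant polynomial. -/
noncomputable def scaleConst (v : Kˣ) (f : UPoly K) : UPoly K :=
  if h : f.1.natDegree = 0 then f else
    ⟨f.1 + C (((v : K) - 1) * f.1.coeff 0), f.2.1.add_of_left (by
      refine lt_of_le_of_lt degree_C_le ?_
      rw [degree_eq_natDegree f.2.1.ne_zero]
      exact_mod_cast Nat.pos_of_ne_zero h), by
      rw [coeff_add, coeff_C_zero, sub_mul, one_mul, add_sub_cancel]
      exact mul_ne_zero v.ne_zero f.2.2⟩

theorem scaleConst_natDegree (v : Kˣ) (f : UPoly K) : (scaleConst v f).1.natDegree = f.1.natDegree := by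
  rw [scaleConst]
  split_ifs with h
  · rfl
  · exact natDegree_add_C

theorem scaleConst_coeff_zero (v : Kˣ) (f : UPoly K) (h : f.1.natDegree ≠ 0) :
    (scaleConst v f).1.coeff 0 = (v : K) * f.1.coeff 0 := by
  rw [scaleConst, dif_neg h, coeff_add, coeff_C_zero]
  ring

theorem scaleConst_injective (v : Kˣ) : Function.Injective (scaleConst (K := K) v) := by
  intro f g h
  have hd : f.1.natDegree = g.1.natDegree := by
    rw [← scaleConst_natDegree v f, h, scaleConst_natDegree]
  by_cases hf : f.1.natDegree = 0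
  · rw [scaleConst, scaleConst, dif_pos hf, dif_pos (hd ▸ hf)] at h
    exact h
  · have h0 := congrArg (fun x : UPoly K => x.1.coeff 0) h
    simp only [scaleConst_coeff_zero _ _ hf, scaleConst_coeff_zero _ _ (hd ▸ hf)] at h0
    have h1 := congrArg Subtype.val h
    rw [scaleConst, scaleConst, dif_neg hf, dif_neg (hd ▸ hf)] at h1
    change f.1 + _ = g.1 + _ at h1
    rw [mul_left_cancel₀ v.ne_zero h0] at h1
    exact Subtype.ext (add_right_cancel h1)

/-- Multiply the constant terms of a tuple. -/
noncomputable def scaleTuple {J n : ℕ} (v : Fin J → Kˣ) (T : ClassTuple K J n) : ClassTuple K J n :=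
  ⟨fun j => scaleConst (v j) (T.1 j), by simp only [scaleConst_natDegree]; exact T.2⟩

theorem supp_scaleTuple {J n : ℕ} (v : Fin J → Kˣ) (T : ClassTuple K J n) :
    supp (scaleTuple v T) = supp T :=
  Finset.filter_congr fun j _ => by show (scaleConst (v j) (T.1 j)).1.natDegree ≠ 0 ↔ _; rw [scaleConst_natDegree]

theorem gam_scaleTuple {J n : ℕ} (v : Fin J → Kˣ) (T : ClassTuple K J n) :
    gam (scaleTuple v T) = gam T := by rw [gam, gam, supp_scaleTuple]

theorem constProd_scaleTuple {J n : ℕ} (v : Fin J → Kˣ) (T : ClassTuple K J n) :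
    constProd (scaleTuple v T) = ((∏ j ∈ supp T, v j ^ ((j : ℕ) + 1) : Kˣ) : K) * constProd T := by
  classical
  rw [Units.coe_prod, constProd, constProd, supp, Finset.prod_filter, ← Finset.prod_mul_distrib]
  refine Finset.prod_congr rfl fun j _ => ?_
  show (scaleConst (v j) (T.1 j)).1.coeff 0 ^ _ = _
  split_ifs with h
  · rw [scaleConst_coeff_zero _ _ h, mul_pow, Units.val_pow_eq_pow_val]
  · have h' : (T.1 j).1.natDegree = 0 := by simpa using h
    rw [scaleConst, dif_pos h', one_mul]

/-- The products of the powers along `s` contain all `gam`-th powers. -/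
theorem exists_translation {J : ℕ} (s : Finset (Fin J)) (c : Kˣ) :
    ∃ v : Fin J → Kˣ, ∏ j ∈ s, v j ^ ((j : ℕ) + 1) =
      c ^ Nat.gcd (s.gcd fun j : Fin J => (j : ℕ) + 1) (q - 1) := by
  classical
  let χ : (Fin J → Kˣ) →* Kˣ :=
    { toFun := fun v => ∏ j ∈ s, v j ^ ((j : ℕ) + 1)
      map_one' := by simp
      map_mul' := fun a b => by simp [mul_pow, Finset.prod_mul_distrib] }
  refine pow_gcd_mem χ.range s _ (fun i hi d => ⟨Function.update (1 : Fin J → Kˣ) i d, ?_⟩) (q - 1)
    (fun d => ?_) c
  · show ∏ j ∈ s, Function.update (1 : Fin J → Kˣ) i d j ^ ((j : ℕ) + 1) = _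
    rw [Finset.prod_eq_single_of_mem i hi fun j _ hj => by rw [Function.update_of_ne hj]; exact one_pow _,
      Function.update_self]
  · rw [← Fintype.card_units, pow_card_eq_one]
    exact χ.range.one_mem

theorem gam_pos {J n : ℕ} (T : ClassTuple K J n) : 0 < gam T :=
  Nat.gcd_pos_of_pos_right _ (by have := Fintype.one_lt_card (α := K); omega)

/-- `(q - 1)` times the sum over one fibre is at most the weighted sum. -/
theorem mul_fibreSum_le (n : ℕ) (a : K) (ha : a ≠ 0) : (q - 1) * fibreSum n a ≤ weightSum K n := by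
  classical
  rw [fibreSum, weightSum, Finset.mul_sum, ← Fintype.card_units]
  set A := (Finset.univ : Finset (ClassTuple K n n)).filter fun T => constProd T = a with hA
  let img : ℕ → Finset Kˣ := fun g => Finset.univ.image fun u : Kˣ => u ^ g
  have hker : ∀ T : ClassTuple K n n, Fintype.card Kˣ ≤ gam T * (img (gam T)).card := fun T => by
    rw [← Finset.card_univ]
    refine Finset.card_le_mul_card_image _ _ fun w _ => ?_
    refine le_trans (le_of_eq (Finset.card_image_of_injective _ Units.val_injective).symm) ?_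
    refine le_trans (Finset.card_le_card (t := (nthRoots (gam T) (w : K)).toFinset) fun x hx => ?_)
      ((Multiset.toFinset_card_le _).trans (card_nthRoots _ _))
    obtain ⟨u, hu, rfl⟩ := Finset.mem_image.1 hx
    rw [Multiset.mem_toFinset, mem_nthRoots (gam_pos T), ← Units.val_pow_eq_pow_val,
      (Finset.mem_filter.1 hu).2]
  have key : ∀ (s : Finset (Fin n)) (w : Kˣ), w ∈ img (Nat.gcd (s.gcd fun j : Fin n => (j : ℕ) + 1) (q - 1)) →
      ∃ v : Fin n → Kˣ, ∏ j ∈ s, v j ^ ((j : ℕ) + 1) = w := fun s w hw => by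
    obtain ⟨u, -, rfl⟩ := Finset.mem_image.1 hw
    exact exists_translation s u
  choose v hv using key
  calc ∑ T ∈ A, Fintype.card Kˣ * gam T
      ≤ ∑ T ∈ A, (img (gam T)).card * gam T ^ 2 := Finset.sum_le_sum fun T _ => by
        rw [pow_two, ← mul_assoc, mul_comm (img (gam T)).card]
        exact Nat.mul_le_mul_right _ (hker T)
    _ = ∑ x ∈ A.sigma fun T => (img (gam T)).attach, gam x.1 ^ 2 := by
        rw [Finset.sum_sigma]
        exact Finset.sum_congr rfl fun T _ => by simp
    _ ≤ _ := by
        let F : (Σ T : ClassTuple K n n, {w // w ∈ img (gam T)}) → ClassTuple K n n :=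
          fun x => scaleTuple (v (supp x.1) x.2.1 x.2.2) x.1
        have hF : ∀ x, gam (F x) = gam x.1 := fun x => gam_scaleTuple _ _
        have hinj : Set.InjOn F (A.sigma fun T => (img (gam T)).attach) := by
          rintro ⟨T, w, hw⟩ hx ⟨T', w', hw'⟩ hy h
          have hT : constProd T = a := (Finset.mem_filter.1 (Finset.mem_sigma.1 hx).1).2
          have hT' : constProd T' = a := (Finset.mem_filter.1 (Finset.mem_sigma.1 hy).1).2
          have hs : supp T = supp T' := by
            have := congrArg supp h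
            simp only [F, supp_scaleTuple] at this
            exact this
          have hc := congrArg constProd h
          simp only [F, constProd_scaleTuple, hT, hT'] at hc
          erw [hv (supp T) w hw, hv (supp T') w' hw'] at hc
          obtain rfl : w = w' := Units.ext (mul_right_cancel₀ ha hc)
          have hvv : v (supp T) w hw = v (supp T') w hw' := by congr 1
          obtain rfl : T = T' := Subtype.ext (funext fun j => scaleConst_injective (v (supp T) w hw j) (by
            have := congrFun (congrArg Subtype.val h) j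
            simp only [F, scaleTuple] at this
            rw [← hvv] at this
            exact this))
          rfl
        calc ∑ x ∈ A.sigma fun T => (img (gam T)).attach, gam x.1 ^ 2
            = ∑ T' ∈ (A.sigma fun T => (img (gam T)).attach).image F, gam T' ^ 2 := by
              rw [Finset.sum_image hinj]
              exact Finset.sum_congr rfl fun x _ => by rw [hF]
          _ ≤ _ := Finset.sum_le_sum_of_subset (Finset.subset_univ _)

/-- The divisors which can be a `gam`. -/
def gamDivisors (n c : ℕ) : Finset ℕ := (Finset.Icc 2 n).filter fun d => d ∣ n ∧ d ∣ c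

theorem gam_dvd {n : ℕ} (T : ClassTuple K n n) : gam T ∣ n ∧ gam T ∣ q - 1 := by
  refine ⟨?_, Nat.gcd_dvd_right _ _⟩
  conv_rhs => rw [← T.2]
  refine Finset.dvd_sum fun j _ => ?_
  by_cases h : (T.1 j).1.natDegree = 0
  · simp [h]
  · exact dvd_mul_of_dvd_left ((Nat.gcd_dvd_left _ _).trans
      (Finset.gcd_dvd (f := fun j : Fin n => (j : ℕ) + 1) (Finset.mem_filter.2 ⟨Finset.mem_univ _, h⟩))) _

/-- Tuples with all part sizes divisible by `d` are at most as many as tuples of `n / d`. -/
theorem card_gam_eq_le {n d : ℕ} (hd : 0 < d) (hdn : d ∣ n) :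
    ((Finset.univ : Finset (ClassTuple K n n)).filter fun T => gam T = d).card ≤
      Fintype.card (ClassTuple K (n / d) (n / d)) := by
  classical
  obtain ⟨m, rfl⟩ := hdn
  rw [Nat.mul_div_cancel_left _ hd]
  let idx : Fin m → Fin (d * m) := fun i => ⟨d * ((i : ℕ) + 1) - 1, by
    have := Nat.mul_le_mul_left d (Nat.succ_le_of_lt i.2)
    have : 0 < d * ((i : ℕ) + 1) := Nat.mul_pos hd (Nat.succ_pos _)
    simp only [Nat.succ_eq_add_one] at *
    omega⟩
  have hidx : ∀ i, (idx i : ℕ) + 1 = d * ((i : ℕ) + 1) := fun i => by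
    have : 0 < d * ((i : ℕ) + 1) := Nat.mul_pos hd (Nat.succ_pos _)
    simp only [idx]
    omega
  have hidxinj : Function.Injective idx := fun a b h => by
    have := congrArg (fun x : Fin (d * m) => (x : ℕ) + 1) h
    simp only [hidx] at this
    exact Fin.ext (by have := Nat.eq_of_mul_eq_mul_left hd this; omega)
  have hout : ∀ T : ClassTuple K (d * m) (d * m), gam T = d → ∀ j, j ∉ Set.range idx →
      (T.1 j).1.natDegree = 0 := fun T hT j hj => by
    by_contra h
    have hdj : gam T ∣ (j : ℕ) + 1 := (Nat.gcd_dvd_left _ _).trans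
      (Finset.gcd_dvd (f := fun j : Fin (d * m) => (j : ℕ) + 1) (Finset.mem_filter.2 ⟨Finset.mem_univ _, h⟩))
    rw [hT] at hdj
    obtain ⟨k, hk⟩ := hdj
    have hk0 : 1 ≤ k := by
      rcases Nat.eq_zero_or_pos k with rfl | h0 <;> omega
    have hkm : k ≤ m := Nat.le_of_mul_le_mul_left (by rw [← hk]; exact j.2) hd
    exact hj ⟨⟨k - 1, by omega⟩, Fin.ext (by
      have := hidx ⟨k - 1, by omega⟩
      rw [show ((⟨k - 1, _⟩ : Fin m) : ℕ) + 1 = k from Nat.sub_add_cancel hk0] at this
      omega)⟩
  have hsum : ∀ T : ClassTuple K (d * m) (d * m), gam T = d →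
      ∑ i : Fin m, ((i : ℕ) + 1) * (T.1 (idx i)).1.natDegree = m := fun T hT => by
    refine Nat.eq_of_mul_eq_mul_left hd ?_
    rw [Finset.mul_sum]
    conv_rhs => rw [← T.2]
    refine Fintype.sum_of_injective idx hidxinj _ _ (fun j hj => by rw [hout T hT j hj, mul_zero]) fun i => ?_
    rw [hidx, mul_assoc]
  let G : {T : ClassTuple K (d * m) (d * m) // gam T = d} → ClassTuple K m m :=
    fun T => ⟨fun i => T.1.1 (idx i), hsum T.1 T.2⟩
  rw [← Fintype.card_subtype]
  refine Fintype.card_le_of_injective G fun T T' h => ?_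
  refine Subtype.ext (Subtype.ext (funext fun j => ?_))
  by_cases hj : j ∈ Set.range idx
  · obtain ⟨i, rfl⟩ := hj
    exact congrFun (congrArg Subtype.val h) i
  · have h1 := hout _ T.2 j hj
    have h2 := hout _ T'.2 j hj
    exact Subtype.ext (((T.1.1 j).2.1.natDegree_eq_zero.1 h1).trans ((T'.1.1 j).2.1.natDegree_eq_zero.1 h2).symm)

/-- The weighted sum through divisors. -/
theorem weightSum_le (n : ℕ) (hn : 1 ≤ n) :
    weightSum K n ≤ Fintype.card (ClassTuple K n n) +
      ∑ d ∈ gamDivisors n (q - 1), (d ^ 2 - 1) * Fintype.card (ClassTuple K (n / d) (n / d)) := by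
  classical
  have h1 : weightSum K n = Fintype.card (ClassTuple K n n) + ∑ T : ClassTuple K n n, (gam T ^ 2 - 1) := by
    rw [weightSum, ← Finset.card_univ, Finset.card_eq_sum_ones, ← Finset.sum_add_distrib]
    exact Finset.sum_congr rfl fun T _ => (Nat.add_sub_cancel' (Nat.one_le_pow _ _ (gam_pos T))).symm
  rw [h1]
  refine Nat.add_le_add_left ?_ _
  have hmem : ∀ T ∈ (Finset.univ : Finset (ClassTuple K n n)).filter (fun T => gam T ≠ 1),
      gam T ∈ gamDivisors n (q - 1) := fun T hT => by
    obtain ⟨hdn, hdq⟩ := gam_dvd T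
    have := gam_pos T
    have := (Finset.mem_filter.1 hT).2
    exact Finset.mem_filter.2 ⟨Finset.mem_Icc.2 ⟨by omega, Nat.le_of_dvd (by omega) hdn⟩, hdn, hdq⟩
  rw [← Finset.sum_filter_of_ne (p := fun T => gam T ≠ 1) (fun T _ h hh => h (by rw [hh]; rfl)),
    ← Finset.sum_fiberwise_of_maps_to hmem]
  refine Finset.sum_le_sum fun d hd => ?_
  rw [Finset.sum_congr rfl fun T hT => by rw [(Finset.mem_filter.1 hT).2], Finset.sum_const, smul_eq_mul,
    mul_comm]
  obtain ⟨hd2, hdn, -⟩ := Finset.mem_filter.1 hd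
  refine Nat.mul_le_mul_left _ (le_trans (Finset.card_le_card ?_) (card_gam_eq_le (by have := (Finset.mem_Icc.1 hd2).1; omega) hdn))
  intro T hT
  exact Finset.mem_filter.2 ⟨Finset.mem_univ _, (Finset.mem_filter.1 hT).2⟩

/-- `card (ClassTuple n n) ≤ q ^ n - 1`. -/
theorem card_classTuple_le (n : ℕ) (hn : 1 ≤ n) : Fintype.card (ClassTuple K n n) + 1 ≤ q ^ n := by
  rw [← Nat.card_eq_fintype_card]
  have h := (classTuple_bounds (K := K) n hn n).2.2 le_rfl
  rw [Nat.sub_self, pow_zero] at h
  have : 1 ≤ q ^ n := Nat.one_le_pow _ _ Fintype.card_pos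
  omega

/-- The count for `n = 3`. -/
theorem card_classTuple_three : Fintype.card (ClassTuple K 3 3) + q ≤ q ^ 3 := by
  classical
  rw [← Nat.card_eq_fintype_card]
  have hq := Fintype.one_lt_card (α := K)
  have := fun i => finite_upolyDeg (K := K) i
  have hone : ∀ k, Nat.card (ClassTuple K 1 k) ≤ Nat.card (UPolyDeg K k) := fun k => by
    refine Nat.card_le_card_of_injective (fun h => (⟨h.1 0, by simpa using h.2⟩ : UPolyDeg K k)) fun a b h => ?_
    exact Subtype.ext (funext fun j => by rw [Subsingleton.elim j 0]; exact congrArg Subtype.val h)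
  have hzero : Nat.card (ClassTuple K 2 0) ≤ 1 := by
    have h := (classTuple_bounds (K := K) 2 (by norm_num) 0).2.1
    simpa using h
  have h32 : Nat.card (ClassTuple K 2 3) ≤ Nat.card (UPolyDeg K 3) + (q - 1) * (q - 1) := by
    rw [Nat.card_congr (classTupleSucc 1 3), Nat.card_sigma,
      show 3 / (1 + 1) + 1 = 2 from rfl, Fin.sum_univ_two, Nat.card_prod, Nat.card_prod]
    simp only [Fin.val_zero, Fin.val_one, mul_zero, mul_one, Nat.sub_zero]
    rw [upolyDeg_zero.1, one_mul, (upolyDeg_succ (K := K) 0).1, pow_zero, mul_one]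
    exact Nat.add_le_add (hone _) (Nat.mul_le_mul_left _ ((hone _).trans_eq (by simp [(upolyDeg_succ (K := K) 0).1])))
  rw [Nat.card_congr (classTupleSucc 2 3), Nat.card_sigma,
    show 3 / (2 + 1) + 1 = 2 from rfl, Fin.sum_univ_two, Nat.card_prod, Nat.card_prod]
  simp only [Fin.val_zero, Fin.val_one, mul_zero, mul_one, Nat.sub_zero]
  rw [upolyDeg_zero.1, one_mul, (upolyDeg_succ (K := K) 0).1, pow_zero, mul_one]
  rw [(upolyDeg_succ (K := K) 2).1] at h32
  have h20 : (q - 1) * Nat.card (ClassTuple K 2 (3 - (2 + 1))) ≤ (q - 1) * 1 := Nat.mul_le_mul_left _ hzero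
  have hfin : (q - 1) * q ^ 2 + (q - 1) * (q - 1) + (q - 1) * 1 + q = q ^ 3 := by
    obtain ⟨r, hr⟩ : ∃ r, q = r + 1 := ⟨q - 1, by omega⟩
    rw [hr]; simp only [Nat.add_sub_cancel]; ring
  omega

end Cfsg.Agent.H62.ClassNumber
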