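/-
Numerical bounds for the weighted tuple counts.
-/
import Cfsg.Agent.H62.ClassNumber.Tuples

set_option autoImplicit false

namespace Cfsg.Agent.H62.ClassNumber

open Cfsg.Agent.H66

universe u

/-- The numerical part of the bound. -/
theorem sum_gamDivisors_le (Q : ℕ) (hQ : 2 ≤ Q) (C : ℕ → ℕ) (hC : ∀ m, 1 ≤ m → C m + 1 ≤ Q ^ m)
    (h3 : C 3 + Q ≤ Q ^ 3) (n : ℕ) (hn : 3 ≤ n) :
    C n + ∑ d ∈ gamDivisors n (Q - 1), (d ^ 2 - 1) * C (n / d) ≤
      (Q - 1) * (Q ^ (n - 1) + 3 * Q ^ (n - 2)) := by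
  obtain ⟨R, rfl⟩ : ∃ R, Q = R + 2 := ⟨Q - 2, by omega⟩
  simp only [show R + 2 - 1 = R + 1 by omega]
  have hmem : ∀ d ∈ gamDivisors n (R + 1), 2 ≤ d ∧ d ≤ R + 1 ∧ d ∣ n ∧ d ∣ R + 1 := fun d hd => by
    obtain ⟨h, h1, h2⟩ := Finset.mem_filter.1 hd
    exact ⟨(Finset.mem_Icc.1 h).1, Nat.le_of_dvd (Nat.succ_pos _) h2, h1, h2⟩
  have hC1 := hC 1 le_rfl
  have hC2 := hC 2 (by norm_num)
  have hC4 := hC 4 (by norm_num)
  rcases (show n = 3 ∨ n = 4 ∨ 5 ≤ n by omega) with rfl | rfl | hn5
  · -- degree three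
    have hsub : gamDivisors 3 (R + 1) ⊆ {3} := fun d hd => by
      obtain ⟨h2, -, hd3, -⟩ := hmem d hd
      have := (Nat.dvd_prime Nat.prime_three).1 hd3
      simp only [Finset.mem_singleton]
      omega
    rcases Finset.subset_singleton_iff.1 hsub with he | he
    · rw [he, Finset.sum_empty, add_zero]
      simp only [Nat.add_one_sub_one, show 3 - 1 = 2 from rfl, show 3 - 2 = 1 from rfl]
      nlinarith
    · rw [he, Finset.sum_singleton]
      obtain ⟨-, h3R, -, -⟩ := hmem 3 (he.symm ▸ Finset.mem_singleton_self 3)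
      norm_num
      nlinarith
  · -- degree four
    have hsub : gamDivisors 4 (R + 1) ⊆ {2, 4} := fun d hd => by
      obtain ⟨h2, -, hd4, -⟩ := hmem d hd
      have := Nat.le_of_dvd (by norm_num) hd4
      interval_cases d <;> first | omega | simp_all
    by_cases hR : 3 ≤ R
    · refine le_trans (Nat.add_le_add_left (Finset.sum_le_sum_of_subset hsub) _) ?_
      rw [Finset.sum_pair (by norm_num)]
      norm_num
      nlinarith
    · have hsub2 : gamDivisors 4 (R + 1) ⊆ (if R = 1 then {2} else ∅) := fun d hd => by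
        obtain ⟨h2, hle, hd4, hdR⟩ := hmem d hd
        interval_cases R <;> interval_cases d <;> first | omega | simp_all
      refine le_trans (Nat.add_le_add_left (Finset.sum_le_sum_of_subset hsub2) _) ?_
      interval_cases R <;> simp <;> norm_num at hC1 hC2 hC4 ⊢ <;> omega
  · -- the general degree
    have hterm : ∀ d ∈ gamDivisors n (R + 1), (d ^ 2 - 1) * C (n / d) ≤ (R + 2) ^ (n - 2) := fun d hd => by
      obtain ⟨h2, hle, hdn, -⟩ := hmem d hd
      obtain ⟨m, rfl⟩ := hdn
      rw [Nat.mul_div_cancel_left _ (by omega)]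
      have hm : 1 ≤ m := by rcases Nat.eq_zero_or_pos m with rfl | h <;> omega
      refine le_trans (Nat.mul_le_mul_left _ ((Nat.le_succ _).trans (hC m hm))) ?_
      rcases (show d = 2 ∨ 3 ≤ d by omega) with rfl | h3d
      · refine le_trans (Nat.mul_le_mul_right _ (show 2 ^ 2 - 1 ≤ R + 2 by norm_num; omega)) ?_
        rw [← pow_succ']
        exact Nat.pow_le_pow_right (by omega) (by omega)
      · refine le_trans (Nat.mul_le_mul_right _ (show d ^ 2 - 1 ≤ (R + 2) ^ 2 from
          (Nat.sub_le _ _).trans (Nat.pow_le_pow_left (by omega) 2))) ?_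
        rw [← pow_add]
        refine Nat.pow_le_pow_right (by omega) ?_
        have h3m : 3 * m ≤ d * m := Nat.mul_le_mul_right m h3d
        rcases (show m = 1 ∨ 2 ≤ m by omega) with rfl | hm2 <;> omega
    have hcard : (gamDivisors n (R + 1)).card ≤ R := by
      refine le_trans (Finset.card_le_card (t := Finset.Icc 2 (R + 1)) fun d hd => ?_) (by simp)
      obtain ⟨h2, hle, -⟩ := hmem d hd
      exact Finset.mem_Icc.2 ⟨h2, hle⟩
    have hsum := (Finset.sum_le_card_nsmul _ _ _ hterm).trans (Nat.mul_le_mul_right _ hcard)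
    have hCn := hC n (by omega)
    obtain ⟨m, rfl⟩ : ∃ m, n = m + 2 := ⟨n - 2, by omega⟩
    simp only [show m + 2 - 2 = m by omega, show m + 2 - 1 = m + 1 by omega, pow_succ] at hCn hsum ⊢
    generalize (R + 2) ^ m = X at hCn hsum ⊢
    nlinarith

variable (K : Type u) [Field K] [Fintype K]

local notation "q" => Fintype.card K

theorem weightSum_one : weightSum K 1 ≤ q - 1 := by
  refine (weightSum_le 1 le_rfl).trans ?_
  have h : gamDivisors 1 (q - 1) = ∅ := by simp [gamDivisors]
  rw [h, Finset.sum_empty, add_zero]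
  have := card_classTuple_le (K := K) 1 le_rfl
  simp only [pow_one] at this
  omega

theorem weightSum_two : weightSum K 2 ≤ (q - 1) * (q + 4) := by
  refine (weightSum_le 2 (by norm_num)).trans ?_
  refine le_trans (Nat.add_le_add_left (Finset.sum_le_sum_of_subset
    (show gamDivisors 2 (q - 1) ⊆ {2} from fun d hd => by
      have := (Finset.mem_Icc.1 (Finset.mem_filter.1 hd).1)
      exact Finset.mem_singleton.2 (by omega))) _) ?_
  rw [Finset.sum_singleton]
  have h1 := card_classTuple_le (K := K) 1 le_rfl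
  have h2 := card_classTuple_le (K := K) 2 (by norm_num)
  have hq := Fintype.one_lt_card (α := K)
  obtain ⟨R, hR⟩ : ∃ R, q = R + 1 := ⟨q - 1, by omega⟩
  simp only [hR, Nat.add_sub_cancel, show 2 / 2 = 1 from rfl] at h1 h2 ⊢
  norm_num at h1 h2 ⊢
  nlinarith

theorem weightSum_ge_three (n : ℕ) (hn : 3 ≤ n) :
    weightSum K n ≤ (q - 1) * (q ^ (n - 1) + 3 * q ^ (n - 2)) :=
  (weightSum_le n (by omega)).trans (sum_gamDivisors_le q Fintype.one_lt_card
    (fun m => Fintype.card (ClassTuple K m m)) card_classTuple_le card_classTuple_three n hn)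

variable {K}

/-- The bound on one fibre. -/
theorem fibreSum_le (n : ℕ) (a : K) (ha : a ≠ 0) :
    (n = 1 → fibreSum n a ≤ 1) ∧ (n = 2 → fibreSum n a ≤ q + 4) ∧
      (3 ≤ n → fibreSum n a ≤ q ^ (n - 1) + 3 * q ^ (n - 2)) := by
  have h := mul_fibreSum_le n a ha
  have hq : 0 < q - 1 := by have := Fintype.one_lt_card (α := K); omega
  refine ⟨?_, ?_, fun hn => Nat.le_of_mul_le_mul_left (h.trans (weightSum_ge_three K n hn)) hq⟩
  · rintro rfl
    exact Nat.le_of_mul_le_mul_left (h.trans ((weightSum_one K).trans_eq (mul_one _).symm)) hq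
  · rintro rfl
    exact Nat.le_of_mul_le_mul_left (h.trans (weightSum_two K)) hq

end Cfsg.Agent.H62.ClassNumber
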