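/-
Conjugacy classes of `SL_n(q)` counted by tuples of polynomials, and those fixed by multiplication by
a scalar.
-/
import Cfsg.Agent.H62.ClassNumber.Bounds
import Cfsg.Agent.H1.Orders

set_option autoImplicit false

open Polynomial Module

namespace Cfsg.Agent.H62.ClassNumber

open Cfsg.Agent.H66

universe u

variable {K : Type u} [Field K] [Fintype K] {n : ℕ}

local notation "q" => Fintype.card K

/-- `scaleRoots` by a unit as a multiplicative equivalence. -/
noncomputable def scaleEquiv (a : Kˣ) : K[X] ≃* K[X] where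
  toFun f := f.scaleRoots (a : K)
  invFun f := f.scaleRoots ((a⁻¹ : Kˣ) : K)
  left_inv f := by
    show (f.scaleRoots (a : K)).scaleRoots _ = f
    rw [← scaleRoots_mul, Units.mul_inv]
    ext i; simp
  right_inv f := by
    show (f.scaleRoots _).scaleRoots (a : K) = f
    rw [← scaleRoots_mul, Units.inv_mul]
    ext i; simp
  map_mul' f g := mul_scaleRoots_of_noZeroDivisors f g _

/-- Polynomials in a scaled endomorphism. -/
theorem aeval_smul_scaleRoots {V : Type*} [AddCommGroup V] [Module K V] (f : Module.End K V) (P : K[X]) (a : K) :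
    aeval (a • f) (P.scaleRoots a) = a ^ P.natDegree • aeval f P := by
  rw [aeval_eq_sum_range, aeval_eq_sum_range, natDegree_scaleRoots, Finset.smul_sum]
  refine Finset.sum_congr rfl fun i hi => ?_
  rw [coeff_scaleRoots, _root_.smul_pow, smul_smul, smul_smul, mul_assoc, ← pow_add,
    Nat.sub_add_cancel (Nat.lt_succ_iff.1 (Finset.mem_range.1 hi)), mul_comm]

/-- An endomorphism similar to a scalar multiple has scale-invariant elementary divisors. -/
theorem scaleRoots_prod_eq {V : Type*} [AddCommGroup V] [Module K V] [FiniteDimensional K V]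
    {f : Module.End K V} {ι : Type*} [Fintype ι] {p : ι → K[X]} {e : ι → ℕ} (hf : IsDecomp f p e)
    (a : Kˣ) (L : V ≃ₗ[K] V) (hL : ∀ v, L (f v) = ((a : K) • f) (L v)) (j : ℕ) :
    (∏ i ∈ Finset.univ.filter (fun i => e i = j + 1), p i).scaleRoots (a : K) =
      ∏ i ∈ Finset.univ.filter (fun i => e i = j + 1), p i := by
  classical
  set s := scaleEquiv a
  show s _ = _
  rw [map_prod, Finset.prod_eq_multiset_prod, Finset.prod_eq_multiset_prod]
  congr 1
  rw [show (fun x => s (p x)) = s ∘ p from rfl, ← Multiset.map_map]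
  set M := (Finset.univ.filter (fun i => e i = j + 1)).val.map p with hM
  have hcnt : ∀ P, M.count P = decompCount p e P (j + 1) := fun P => by
    rw [hM, Multiset.count_map, ← Finset.filter_val, ← Finset.card_def, Finset.filter_filter, decompCount,
      Nat.card_eq_fintype_card, Fintype.card_subtype]
    exact congrArg _ (Finset.filter_congr fun i _ => by simp [eq_comm]; exact and_comm)
  ext b
  obtain ⟨c, rfl⟩ := s.surjective b
  rw [Multiset.count_map_eq_count' _ _ s.injective, hcnt, hcnt]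
  have hmon : (s c).Monic ↔ c.Monic := monic_scaleRoots_iff _
  have hirr : Irreducible (s c) ↔ Irreducible c := MulEquiv.irreducible_iff s
  by_cases hc : c.Monic ∧ Irreducible c
  · have hker : ∀ k, finrank K (LinearMap.ker (aeval f (s c ^ k))) = finrank K (LinearMap.ker (aeval f (c ^ k))) := by
      intro k
      rw [← map_pow s, finrank_ker_aeval_eq_of_intertwine (g := (a : K) • f) hL]
      show finrank K (LinearMap.ker (aeval ((a : K) • f) ((c ^ k).scaleRoots (a : K)))) = _
      rw [aeval_smul_scaleRoots, LinearMap.ker_smul _ _ (pow_ne_zero _ a.ne_zero)]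
    have h1 := hf.decompCount_formula hc.1 hc.2 j
    have h2 := hf.decompCount_formula (hmon.2 hc.1) (hirr.2 hc.2) j
    rw [hker, hker, hker, show (s c).natDegree = c.natDegree from natDegree_scaleRoots _ _] at h2
    exact Nat.eq_of_mul_eq_mul_left hc.2.natDegree_pos (by omega)
  · have h1 : IsEmpty {i // p i = c ∧ e i = j + 1} :=
      ⟨fun i => hc (i.2.1 ▸ ⟨hf.monic i.1, hf.irreducible i.1⟩)⟩
    have h2 : IsEmpty {i // p i = s c ∧ e i = j + 1} :=
      ⟨fun i => hc (by rw [← hmon, ← hirr, ← i.2.1]; exact ⟨hf.monic i.1, hf.irreducible i.1⟩)⟩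
    simp [decompCount]

/-- A subset of the classes of `SL_n` is counted by its tuples, with weights. -/
theorem card_classes_le (S : Set (ConjClasses (Matrix.SpecialLinearGroup (Fin n) K)))
    (P : GL (Fin n) K → ClassTuple K n n) (hconj : ∀ g h, P g = P h → IsConj g h)
    (hdet : ∀ (g : GL (Fin n) K) (c : Kˣ), ∃ z : GL (Fin n) K, z * g = g * z ∧
        (z : Matrix (Fin n) (Fin n) K).det = ((c ^ gam (P g) : Kˣ) : K))
    (A : Finset (ClassTuple K n n)) (hA : ∀ C ∈ S, P (Matrix.SpecialLinearGroup.toGL C.out) ∈ A) :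
    Nat.card S ≤ ∑ T ∈ A, gam T := by
  classical
  rw [Nat.card_eq_fintype_card, ← Finset.card_univ,
    Finset.card_eq_sum_card_fiberwise (s := (Finset.univ : Finset S)) (t := A)
      (f := fun C => P (Matrix.SpecialLinearGroup.toGL C.1.out)) fun C _ => hA C.1 C.2]
  refine Finset.sum_le_sum fun T _ => ?_
  set F := (Finset.univ : Finset S).filter fun C => P (Matrix.SpecialLinearGroup.toGL C.1.out) = T with hF
  rcases F.eq_empty_or_nonempty with h0 | ⟨C₀, hC₀⟩
  · rw [h0]; exact Nat.zero_le _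
  set g₀ := Matrix.SpecialLinearGroup.toGL C₀.1.out with hg₀
  have hT : P g₀ = T := (Finset.mem_filter.1 hC₀).2
  have hy : ∀ C : {C // C ∈ F}, ∃ y : GL (Fin n) K, y * g₀ * y⁻¹ = Matrix.SpecialLinearGroup.toGL C.1.1.out :=
    fun C => isConj_iff.1 (hconj _ _ (hT.trans (Finset.mem_filter.1 C.2).2.symm))
  choose y hy using hy
  let R : Subgroup Kˣ := (powMonoidHom (gam T) : Kˣ →* Kˣ).range
  let Φ : {C // C ∈ F} → Kˣ ⧸ R := fun C => QuotientGroup.mk (Matrix.GeneralLinearGroup.det (y C))
  have hΦ : Function.Injective Φ := by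
    intro C C' h
    obtain ⟨t, ht⟩ := QuotientGroup.eq.1 h
    obtain ⟨z, hz, hzd⟩ := hdet g₀ t
    rw [hT] at hzd
    have hzd' : Matrix.GeneralLinearGroup.det z = t ^ gam T := Units.ext hzd
    set w := y C' * (y C * z)⁻¹ with hw
    have hwd : Matrix.GeneralLinearGroup.det w = 1 := by
      rw [hw, map_mul, map_inv, map_mul, hzd']
      rw [show t ^ gam T = (Matrix.GeneralLinearGroup.det (y C))⁻¹ * Matrix.GeneralLinearGroup.det (y C') from ht,
        mul_inv_cancel_left, mul_inv_cancel]
    have hconj' : w * Matrix.SpecialLinearGroup.toGL C.1.1.out * w⁻¹ = Matrix.SpecialLinearGroup.toGL C'.1.1.out := by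
      rw [← hy C, ← hy C', hw]
      have : z⁻¹ * g₀ * z = g₀ := by rw [mul_assoc, ← hz, inv_mul_cancel_left]
      calc _ = y C' * (z⁻¹ * g₀ * z) * (y C')⁻¹ := by group
        _ = _ := by rw [this]
    let w' : Matrix.SpecialLinearGroup (Fin n) K := ⟨w, congrArg Units.val hwd⟩
    have hinj : Function.Injective (Matrix.SpecialLinearGroup.toGL : Matrix.SpecialLinearGroup (Fin n) K → _) :=
      fun a b e => Subtype.ext (congrArg Units.val e)
    have hw' : Matrix.SpecialLinearGroup.toGL w' = w := Units.ext rfl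
    refine Subtype.ext (Subtype.ext ?_)
    rw [← Quotient.out_eq C.1.1, ← Quotient.out_eq C'.1.1]
    exact ConjClasses.mk_eq_mk_iff_isConj.2 (isConj_iff.2 ⟨w', hinj (by
      rw [map_mul, map_mul, map_inv, hw', hconj'])⟩)
  refine le_trans (le_of_eq (Nat.card_eq_finsetCard F).symm) ((Nat.card_le_card_of_injective Φ hΦ).trans ?_)
  show R.index ≤ _
  rw [IsCyclic.index_powMonoidHom_range]
  exact Nat.le_of_dvd (gam_pos T) (Nat.gcd_dvd_right _ _)

/-- `constProd` of the tuple of an element of `SL_n`. -/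
theorem constProd_param (P : GL (Fin n) K → ClassTuple K n n)
    (hP : ∀ g : GL (Fin n) K, (g : Matrix (Fin n) (Fin n) K).det = (-1) ^ n * constProd (P g))
    (x : Matrix.SpecialLinearGroup (Fin n) K) :
    constProd (P (Matrix.SpecialLinearGroup.toGL x)) = (-1) ^ n := by
  have h := hP (Matrix.SpecialLinearGroup.toGL x)
  rw [Matrix.SpecialLinearGroup.coe_GL_coe_matrix, x.2] at h
  have h2 := congrArg (fun t => (-1 : K) ^ n * t) h
  simp only [mul_one, ← mul_assoc, ← pow_add, ← two_mul, pow_mul, neg_one_sq, one_pow, one_mul] at h2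
  exact h2.symm

/-- Classes of `SL_n` in number. -/
theorem card_SL_le (hn : 1 ≤ n) :
    Nat.card (ConjClasses (Matrix.SpecialLinearGroup (Fin n) K)) ≤ fibreSum n ((-1 : K) ^ n) := by
  classical
  obtain ⟨P, hconj, hdetg, hdet, -⟩ := exists_param (K := K) hn
  have h := card_classes_le Set.univ P hconj hdet (Finset.univ.filter fun T => constProd T = (-1 : K) ^ n)
    fun C _ => Finset.mem_filter.2 ⟨Finset.mem_univ _, constProd_param P hdetg _⟩
  rw [Nat.card_congr (Equiv.Set.univ _)] at h
  refine h.trans (le_of_eq ?_)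
  rw [fibreSum]

/-- Contraction of invariant tuples. -/
theorem sum_invariant_le {e : ℕ} (he : 0 < e) {m : ℕ} (hm : n = e * m) (a : K)
    (A : Finset (ClassTuple K n n)) (hA : ∀ T ∈ A, constProd T = a ∧
      ∀ j i, (T.1 j).1.coeff i ≠ 0 → e ∣ i) :
    ∑ T ∈ A, gam T ≤ fibreSum m a := by
  classical
  subst hm
  have hem : m ≤ e * m := Nat.le_mul_of_pos_left _ he
  have hfix : ∀ T ∈ A, ∀ j, expand K e (contract e (T.1 j).1) = (T.1 j).1 := fun T hT j => by
    ext i
    rw [coeff_expand he]
    split_ifs with h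
    · rw [coeff_contract he.ne', Nat.div_mul_cancel h]
    · by_contra h0
      exact h ((hA T hT).2 j i (Ne.symm h0))
  have hdeg : ∀ T ∈ A, ∀ j, (T.1 j).1.natDegree = (contract e (T.1 j).1).natDegree * e := fun T hT j => by
    conv_lhs => rw [← hfix T hT j, natDegree_expand]
  have hout : ∀ T ∈ A, ∀ j, j ∉ Set.range (Fin.castLE hem) → (T.1 j).1.natDegree = 0 := fun T hT j hj => by
    by_contra h
    have hjm : m ≤ (j : ℕ) := by
      by_contra hlt
      exact hj ⟨⟨j, by omega⟩, rfl⟩
    have h1 := Finset.single_le_sum (f := fun j : Fin (e * m) => ((j : ℕ) + 1) * (T.1 j).1.natDegree)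
      (fun _ _ => Nat.zero_le _) (Finset.mem_univ j)
    rw [T.2] at h1
    rw [hdeg T hT] at h h1
    have h3 : (m + 1) * (1 * e) ≤ ((j : ℕ) + 1) * ((contract e (T.1 j).1).natDegree * e) :=
      Nat.mul_le_mul (by omega) (Nat.mul_le_mul_right e (Nat.pos_of_ne_zero fun h0 => h (by rw [h0, zero_mul])))
    nlinarith
  let h : {T // T ∈ A} → Fin m → UPoly K := fun T i => ⟨contract e (T.1.1 (Fin.castLE hem i)).1, by
    have hf := hfix T.1 T.2 (Fin.castLE hem i)
    refine ⟨?_, ?_⟩
    · have := (T.1.1 (Fin.castLE hem i)).2.1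
      rw [← hf] at this
      rwa [monic_expand_iff he] at this
    · rw [coeff_contract he.ne', zero_mul]
      exact (T.1.1 (Fin.castLE hem i)).2.2⟩
  have hsum : ∀ T, ∑ i : Fin m, ((i : ℕ) + 1) * (h T i).1.natDegree = m := fun T => by
    refine Nat.eq_of_mul_eq_mul_left he ?_
    rw [Finset.mul_sum]
    conv_rhs => rw [← T.1.2]
    refine Fintype.sum_of_injective (Fin.castLE hem) (Fin.castLE_injective hem) _ _
      (fun j hj => by rw [hout T.1 T.2 j hj, mul_zero]) fun i => ?_
    rw [hdeg T.1 T.2, Fin.val_castLE]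
    ring
  let F : {T // T ∈ A} → ClassTuple K m m := fun T => ⟨h T, hsum T⟩
  have hinj : Function.Injective F := fun T T' hh => by
    refine Subtype.ext (Subtype.ext (funext fun j => ?_))
    by_cases hj : j ∈ Set.range (Fin.castLE hem)
    · obtain ⟨i, rfl⟩ := hj
      refine Subtype.ext ?_
      rw [← hfix T.1 T.2, ← hfix T'.1 T'.2]
      exact congrArg (expand K e) (congrArg Subtype.val (congrFun (congrArg Subtype.val hh) i))
    · exact Subtype.ext (((T.1.1 j).2.1.natDegree_eq_zero.1 (hout T.1 T.2 j hj)).trans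
        ((T'.1.1 j).2.1.natDegree_eq_zero.1 (hout T'.1 T'.2 j hj)).symm)
  have hsupp : ∀ T, supp T.1 = (supp (F T)).image (Fin.castLE hem) := fun T => by
    ext j
    simp only [supp, Finset.mem_filter, Finset.mem_univ, true_and, Finset.mem_image]
    refine ⟨fun hj => ?_, ?_⟩
    · obtain ⟨i, rfl⟩ : j ∈ Set.range (Fin.castLE hem) := by
        by_contra h0
        exact hj (hout T.1 T.2 j h0)
      refine ⟨i, fun h0 => hj ?_, rfl⟩
      rw [hdeg T.1 T.2, show (contract e (T.1.1 (Fin.castLE hem i)).1).natDegree = 0 from h0, zero_mul]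
    · rintro ⟨i, hi, rfl⟩ h0
      rw [hdeg T.1 T.2] at h0
      exact hi ((Nat.mul_eq_zero.1 h0).resolve_right he.ne')
  have hgam : ∀ T, gam T.1 = gam (F T) := fun T => by
    rw [gam, gam, hsupp, Finset.gcd_image]
    rfl
  have hconst : ∀ T, constProd (F T) = a := fun T => by
    rw [← (hA T.1 T.2).1]
    refine Fintype.prod_of_injective (Fin.castLE hem) (Fin.castLE_injective hem) _ _ (fun j hj => ?_) fun i => ?_
    · rw [(T.1.1 j).2.1.natDegree_eq_zero.1 (hout T.1 T.2 j hj), coeff_one_zero, one_pow]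
    · show (contract e (T.1.1 (Fin.castLE hem i)).1).coeff 0 ^ _ = _
      rw [coeff_contract he.ne', zero_mul]
      rfl
  rw [← Finset.sum_attach, fibreSum]
  calc ∑ T ∈ A.attach, gam T.1 = ∑ T' ∈ A.attach.image F, gam T' := by
        rw [Finset.sum_image fun x _ y _ hxy => hinj hxy]
        exact Finset.sum_congr rfl fun T _ => hgam T
    _ ≤ _ := Finset.sum_le_sum_of_subset fun T' hT' => by
        obtain ⟨T, -, rfl⟩ := Finset.mem_image.1 hT'
        exact Finset.mem_filter.2 ⟨Finset.mem_univ _, hconst T⟩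

/-- Classes fixed by multiplication by a scalar matrix. -/
theorem card_fixed_le (hn : 1 ≤ n) (z : Matrix.SpecialLinearGroup (Fin n) K) (a : Kˣ)
    (hz : (z : Matrix (Fin n) (Fin n) K) = (a : K) • 1) {m : ℕ} (hm : n = orderOf a * m) :
    Nat.card {C : ConjClasses (Matrix.SpecialLinearGroup (Fin n) K) //
      IsConj C.out (z * C.out)} ≤ fibreSum m ((-1 : K) ^ n) := by
  classical
  obtain ⟨P, hconj, hdetg, hdet, hdec⟩ := exists_param (K := K) hn
  set A := (Finset.univ : Finset (ClassTuple K n n)).filter fun T => constProd T = (-1 : K) ^ n ∧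
      ∀ j i, (T.1 j).1.coeff i ≠ 0 → orderOf a ∣ i with hA
  refine (card_classes_le {C | IsConj C.out (z * C.out)} P hconj hdet A fun C hC => ?_).trans
    (sum_invariant_le (orderOf_pos a) hm _ A fun T hT => (Finset.mem_filter.1 hT).2)
  refine Finset.mem_filter.2 ⟨Finset.mem_univ _, constProd_param P hdetg _, fun j i hi => ?_⟩
  set g := Matrix.SpecialLinearGroup.toGL C.out
  obtain ⟨ι, _, p, e, hd, hf⟩ := hdec g
  have hconjM : IsConj (g : Matrix (Fin n) (Fin n) K) ((a : K) • (g : Matrix (Fin n) (Fin n) K)) := by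
    have h1 := (Units.coeHom (Matrix (Fin n) (Fin n) K)).map_isConj
      ((Matrix.SpecialLinearGroup.toGL : Matrix.SpecialLinearGroup (Fin n) K →* _).map_isConj hC)
    simp only [Units.coeHom_apply, Matrix.SpecialLinearGroup.coe_GL_coe_matrix, Matrix.SpecialLinearGroup.coe_mul,
      hz, smul_mul_assoc, one_mul] at h1
    exact h1
  obtain ⟨L, hL⟩ := exists_equiv_of_isConj hconjM
  have hsr := scaleRoots_prod_eq hd a L (fun v => by
    rw [Matrix.toLin'_apply, LinearMap.smul_apply, Matrix.toLin'_apply, hL, Matrix.smul_mulVec]) (j : ℕ)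
  rw [← hf j] at hsr
  set φ := ((P g).1 j).1
  have hmonic := ((P g).1 j).2.1
  have key : ∀ k, φ.coeff k ≠ 0 → a ^ (φ.natDegree - k) = 1 := fun k hk => by
    have h1 := congrArg (fun r : K[X] => r.coeff k) hsr
    simp only [coeff_scaleRoots] at h1
    exact Units.ext (by rw [Units.val_pow_eq_pow_val, Units.val_one]; exact (mul_eq_left₀ hk).1 h1)
  have h0 := orderOf_dvd_of_pow_eq_one (key 0 ((P g).1 j).2.2)
  rw [Nat.sub_zero] at h0
  have hi' := orderOf_dvd_of_pow_eq_one (key i hi)
  exact (Nat.dvd_add_right hi').1 (by rwa [Nat.sub_add_cancel (le_natDegree_of_ne_zero hi)])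

end Cfsg.Agent.H62.ClassNumber
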