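/-
Bounds for the numbers of conjugacy classes of `SL_n(q)` and `PSL_n(q)`.
-/
import Cfsg.Agent.H62.ClassNumber.Classes

set_option autoImplicit false

open Polynomial

namespace Cfsg.Agent.H62.ClassNumber

open Cfsg.Agent.H66

universe u

variable {K : Type u} [Field K] [Fintype K] {n : ℕ}

local notation "q" => Fintype.card K

/-- `SL_n` has more than `q ^ (n - 1)` classes. -/
theorem lt_card_SL (hn : 2 ≤ n) :
    q ^ (n - 1) < Nat.card (ConjClasses (Matrix.SpecialLinearGroup (Fin n) K)) := by
  classical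
  obtain ⟨p, hchar⟩ := CharP.exists K
  have hpp : p.Prime := (CharP.char_is_prime_or_zero K p).resolve_right fun h => by
    subst h; have := CharP.charP_to_charZero K; exact not_finite K
  have := Fact.mk hpp
  obtain ⟨k, rfl⟩ := Nat.exists_eq_add_of_le' (show 1 ≤ n by omega)
  let S := {f : K[X] // (f.Monic ∧ f.natDegree = k + 1) ∧ f.coeff 0 = (-1 : K) ^ (k + 1)}
  have hS : Nat.card S = q ^ k := by
    rw [card_monic_coeff_zero k (fun a => a = (-1 : K) ^ (k + 1))]
    simp
  have hSfin : Finite S := Nat.finite_of_card_ne_zero (by rw [hS]; exact pow_ne_zero _ Fintype.card_ne_zero)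
  have hrep : ∀ f : S, ∃ x : Matrix.SpecialLinearGroup (Fin (k + 1)) K,
      (x : Matrix (Fin (k + 1)) (Fin (k + 1)) K).charpoly = f.1 ∧ (orderOf x).Coprime p := by
    intro f
    obtain ⟨g, hg, hgp⟩ := exists_gl_charpoly_eq p (k := k + 1) f.2.1.1 f.2.1.2
      (by rw [f.2.2]; exact pow_ne_zero _ (neg_ne_zero.2 one_ne_zero))
    have hd : (g : Matrix (Fin (k + 1)) (Fin (k + 1)) K).det = 1 := by
      rw [Matrix.det_eq_sign_charpoly_coeff, hg, f.2.2, Fintype.card_fin, ← mul_pow, neg_one_mul, neg_neg, one_pow]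
    let y : Matrix.SpecialLinearGroup (Fin (k + 1)) K := ⟨g, hd⟩
    refine ⟨y, hg, ?_⟩
    rw [← orderOf_injective (Matrix.SpecialLinearGroup.toGL : Matrix.SpecialLinearGroup (Fin (k + 1)) K →* _)
      (fun a b e => Subtype.ext (congrArg Units.val e)) y]
    rwa [show Matrix.SpecialLinearGroup.toGL y = g from Units.ext rfl]
  choose x hx hxp using hrep
  let i0 : Fin (k + 1) := ⟨0, by omega⟩
  let i1 : Fin (k + 1) := ⟨1, by omega⟩
  have h01 : i0 ≠ i1 := by simp [i0, i1, Fin.ext_iff]
  let t : Matrix.SpecialLinearGroup (Fin (k + 1)) K :=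
    ⟨Matrix.transvection i0 i1 1, Matrix.det_transvection_of_ne i0 i1 h01 1⟩
  have ht : orderOf t = p := by
    refine orderOf_eq_prime ?_ fun h => ?_
    · have key : ∀ m : ℕ, ((t ^ m : Matrix.SpecialLinearGroup (Fin (k + 1)) K) : Matrix _ _ K) =
          Matrix.transvection i0 i1 (m : K) := by
        intro m
        induction m with
        | zero => simp
        | succ m ih =>
          rw [pow_succ, Matrix.SpecialLinearGroup.coe_mul, ih, Nat.cast_succ]
          exact Matrix.transvection_mul_transvection_same i0 i1 h01 _ _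
      refine Subtype.ext ?_
      rw [key, CharP.cast_eq_zero, Matrix.transvection_zero]
      rfl
    · have := congrFun (congrFun (congrArg Subtype.val h) i0) i1
      simp [t, Matrix.transvection, h01] at this
  let F : Option S → ConjClasses (Matrix.SpecialLinearGroup (Fin (k + 1)) K) := fun o =>
    o.elim (ConjClasses.mk t) fun f => ConjClasses.mk (x f)
  have hne : ∀ f, ConjClasses.mk t ≠ ConjClasses.mk (x f) := fun f h => by
    have := coprime_orderOf_of_isConj (ConjClasses.mk_eq_mk_iff_isConj.1 h.symm) (hxp f)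
    rw [ht, Nat.coprime_self] at this
    exact hpp.one_lt.ne' this
  have hF : Function.Injective F := by
    rintro (_ | f) (_ | f') h
    · rfl
    · exact absurd h (hne f')
    · exact absurd h.symm (hne f)
    · have h1 := charpoly_eq_of_isConj
        (gl_isConj_iff.1 ((Matrix.SpecialLinearGroup.toGL :
          Matrix.SpecialLinearGroup (Fin (k + 1)) K →* _).map_isConj (ConjClasses.mk_eq_mk_iff_isConj.1 h)))
      simp only [Matrix.SpecialLinearGroup.coe_GL_coe_matrix, hx] at h1
      exact congrArg some (Subtype.ext h1)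
  have h := Nat.card_le_card_of_injective F hF
  rw [Finite.card_option, hS] at h
  simpa using h

/-- The upper bounds for `SL_n`. -/
theorem card_SL_bounds (hn : 2 ≤ n) :
    (n = 2 → Nat.card (ConjClasses (Matrix.SpecialLinearGroup (Fin n) K)) ≤ q + 4) ∧
      (3 ≤ n → Nat.card (ConjClasses (Matrix.SpecialLinearGroup (Fin n) K)) ≤ q ^ (n - 1) + 3 * q ^ (n - 2)) := by
  have h := card_SL_le (K := K) (n := n) (by omega)
  obtain ⟨-, h2, h3⟩ := fibreSum_le n ((-1 : K) ^ n) (pow_ne_zero _ (neg_ne_zero.2 one_ne_zero))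
  exact ⟨fun e => h.trans (h2 e), fun e => h.trans (h3 e)⟩

local notation "SLn" => Matrix.SpecialLinearGroup (Fin n) K

/-- Multiplication of classes by central elements. -/
noncomputable def centreAction : MulAction (Subgroup.center SLn) (ConjClasses SLn) where
  smul z C := ConjClasses.mk ((z : SLn) * C.out)
  one_smul C := by
    show ConjClasses.mk ((1 : SLn) * C.out) = C
    rw [one_mul]
    exact Quotient.out_eq C
  mul_smul z w C := by
    show ConjClasses.mk (((z * w : Subgroup.center SLn) : SLn) * C.out) =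
      ConjClasses.mk ((z : SLn) * (ConjClasses.mk ((w : SLn) * C.out)).out)
    refine ConjClasses.mk_eq_mk_iff_isConj.2 ?_
    obtain ⟨c, hc⟩ := isConj_iff.1 (ConjClasses.mk_eq_mk_iff_isConj.1
      (Quotient.out_eq (ConjClasses.mk ((w : SLn) * C.out)))).symm
    refine isConj_iff.2 ⟨c, ?_⟩
    rw [Subgroup.coe_mul, mul_assoc (z : SLn), ← mul_assoc c, Subgroup.mem_center_iff.1 z.2 c, ← hc]
    group

/-- Classes of `SL_n` against those of `PSL_n`, below. -/
theorem card_SL_le_mul_card_PSL :
    Nat.card (ConjClasses SLn) ≤ Nat.card (Subgroup.center SLn) *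
      Nat.card (ConjClasses (Matrix.ProjectiveSpecialLinearGroup (Fin n) K)) := by
  let := centreAction (K := K) (n := n)
  let π : SLn →* SLn ⧸ Subgroup.center SLn := QuotientGroup.mk' _
  have key : ∀ C : ConjClasses SLn, ∃ z : Subgroup.center SLn,
      z • ConjClasses.mk (ConjClasses.map π C).out.out = C := by
    intro C
    set y := (ConjClasses.map π C).out.out with hy
    have h1 : IsConj (π y) (π C.out) := by
      refine ConjClasses.mk_eq_mk_iff_isConj.1 ?_
      rw [show π y = (ConjClasses.map π C).out from Quotient.out_eq _]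
      refine (Quotient.out_eq _).trans ?_
      conv_lhs => rw [← Quotient.out_eq C]
      rfl
    obtain ⟨c', hc'⟩ := isConj_iff.1 h1
    obtain ⟨c, rfl⟩ := QuotientGroup.mk'_surjective _ c'
    rw [← map_inv, ← map_mul, ← map_mul, QuotientGroup.mk'_apply, QuotientGroup.mk'_apply, QuotientGroup.eq] at hc'
    refine ⟨⟨_, hc'⟩, ?_⟩
    show ConjClasses.mk (((c * y * c⁻¹)⁻¹ * C.out) * (ConjClasses.mk y).out) = C
    conv_rhs => rw [← Quotient.out_eq C]
    refine ConjClasses.mk_eq_mk_iff_isConj.2 ?_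
    obtain ⟨d, hd⟩ := isConj_iff.1 (ConjClasses.mk_eq_mk_iff_isConj.1 (Quotient.out_eq (ConjClasses.mk y)))
    refine isConj_iff.2 ⟨c * d, ?_⟩
    have hcen := Subgroup.mem_center_iff.1 hc' (c * d)
    rw [← mul_assoc (c * d), hcen, mul_assoc _ (c * d), mul_assoc _ _ (c * d)⁻¹]
    rw [show c * d * (ConjClasses.mk y).out * (c * d)⁻¹ = c * (d * (ConjClasses.mk y).out * d⁻¹) * c⁻¹ by group, hd,
      mul_assoc, ← mul_assoc]
    have hcen2 := Subgroup.mem_center_iff.1 hc' (c * y * c⁻¹)
    rw [← hcen2, mul_inv_cancel_left]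
  choose z hz using key
  rw [← Nat.card_prod]
  refine Nat.card_le_card_of_injective (fun C => (z C, ConjClasses.map π C)) fun C C' h => ?_
  obtain ⟨h1, h2⟩ := Prod.mk.inj h
  rw [← hz C, ← hz C', h1, h2]

/-- Burnside for classes of `PSL_n`. -/
theorem mul_card_PSL_le :
    Nat.card (Subgroup.center SLn) * Nat.card (ConjClasses (Matrix.ProjectiveSpecialLinearGroup (Fin n) K)) ≤
      ∑ᶠ z : Subgroup.center SLn, Nat.card {C : ConjClasses SLn // IsConj C.out ((z : SLn) * C.out)} := by
  classical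
  let := centreAction (K := K) (n := n)
  let π : SLn →* SLn ⧸ Subgroup.center SLn := QuotientGroup.mk' _
  have := Fintype.ofFinite (Subgroup.center SLn)
  have := Fintype.ofFinite (ConjClasses SLn)
  set Ω := Quotient (MulAction.orbitRel (Subgroup.center SLn) (ConjClasses SLn))
  have := Fintype.ofFinite Ω
  have hsurj : Nat.card (ConjClasses (Matrix.ProjectiveSpecialLinearGroup (Fin n) K)) ≤ Nat.card Ω := by
    refine Nat.card_le_card_of_surjective (Quotient.lift (fun C : ConjClasses SLn => ConjClasses.map π C) ?_) ?_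
    · rintro C C' ⟨z, rfl⟩
      show ConjClasses.map π (ConjClasses.mk ((z : SLn) * C'.out)) = ConjClasses.map π C'
      conv_rhs => rw [← Quotient.out_eq C']
      show ConjClasses.mk (π ((z : SLn) * C'.out)) = ConjClasses.mk (π C'.out)
      rw [map_mul, show π (z : SLn) = 1 from (QuotientGroup.eq_one_iff _).2 z.2, one_mul]
    · intro D
      obtain ⟨C, rfl⟩ := ConjClasses.map_surjective (f := π) (QuotientGroup.mk'_surjective _) D
      exact ⟨Quotient.mk _ C, rfl⟩
  have hfix : ∀ z : Subgroup.center SLn, Fintype.card (MulAction.fixedBy (ConjClasses SLn) z) =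
      Nat.card {C : ConjClasses SLn // IsConj C.out ((z : SLn) * C.out)} := fun z => by
    rw [← Nat.card_eq_fintype_card]
    refine Nat.card_congr (Equiv.subtypeEquivRight fun C => ?_)
    show ConjClasses.mk ((z : SLn) * C.out) = C ↔ _
    conv_lhs => rhs; rw [← Quotient.out_eq C]
    exact ConjClasses.mk_eq_mk_iff_isConj.trans isConj_comm
  rw [finsum_eq_sum_of_fintype, ← Finset.sum_congr rfl (fun z _ => hfix z),
    MulAction.sum_card_fixedBy_eq_card_orbits_mul_card_group, ← Nat.card_eq_fintype_card, ← Nat.card_eq_fintype_card,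
    mul_comm]
  exact Nat.mul_le_mul_right _ hsurj

/-- The upper bound for `PSL_n`. -/
theorem card_PSL_upper (hn : 2 ≤ n) :
    Nat.gcd n (q - 1) * Nat.card (ConjClasses (Matrix.ProjectiveSpecialLinearGroup (Fin n) K)) ≤
      q ^ (n - 1) + 5 * q ^ (n - 2) := by
  classical
  have : Nonempty (Fin n) := ⟨⟨0, by omega⟩⟩
  have hd : Nat.card (Subgroup.center SLn) = Nat.gcd n (q - 1) := by
    rw [Agent.H1.card_center_SL, Fintype.card_fin, Nat.card_eq_fintype_card, Fintype.card_units]
  rw [← hd]
  refine mul_card_PSL_le.trans ?_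
  have := Fintype.ofFinite (Subgroup.center SLn)
  rw [finsum_eq_sum_of_fintype, ← Finset.add_sum_erase _ _ (Finset.mem_univ 1)]
  have h1 : Nat.card {C : ConjClasses SLn // IsConj C.out (((1 : Subgroup.center SLn) : SLn) * C.out)} ≤
      Nat.card (ConjClasses SLn) := Nat.card_le_card_of_injective _ Subtype.val_injective
  obtain ⟨hk2, hk3⟩ := card_SL_bounds (K := K) hn
  have hq := Fintype.one_lt_card (α := K)
  have hd0 : Nat.card (Subgroup.center SLn) ≤ q - 1 := by
    rw [hd]; exact Nat.le_of_dvd (by omega) (Nat.gcd_dvd_right _ _)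
  have hdn : Nat.card (Subgroup.center SLn) ∣ n := hd ▸ Nat.gcd_dvd_left _ _
  -- the bound on one non-trivial summand
  have hone : ∀ z ∈ (Finset.univ : Finset (Subgroup.center SLn)).erase 1, ∃ m, 2 * m ≤ n ∧ 1 ≤ m ∧
      Nat.card {C : ConjClasses SLn // IsConj C.out ((z : SLn) * C.out)} ≤ fibreSum m ((-1 : K) ^ n) := by
    intro z hz
    obtain ⟨r, hrn, hrz⟩ := Matrix.SpecialLinearGroup.mem_center_iff.1 z.2
    rw [Fintype.card_fin] at hrn
    have hr0 : r ≠ 0 := fun h => by rw [h, zero_pow (by omega)] at hrn; exact zero_ne_one hrn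
    set a : Kˣ := Units.mk0 r hr0
    have han : a ^ n = 1 := Units.ext (by simpa [a] using hrn)
    have hz' : ((z : SLn) : Matrix (Fin n) (Fin n) K) = (a : K) • 1 := by
      rw [← hrz, Matrix.scalar_apply, Matrix.smul_one_eq_diagonal]
      rfl
    have ha1 : a ≠ 1 := fun h => by
      refine (Finset.mem_erase.1 hz).1 (Subtype.ext (Subtype.ext ?_))
      rw [hz', h, Units.val_one, one_smul]
      rfl
    obtain ⟨m, hm⟩ := orderOf_dvd_of_pow_eq_one han
    have he : 2 ≤ orderOf a := by
      have h1 := orderOf_pos a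
      have h2 : orderOf a ≠ 1 := fun h => ha1 (orderOf_eq_one_iff.1 h)
      omega
    refine ⟨m, hm ▸ Nat.mul_le_mul_right m he, ?_, card_fixed_le (by omega) _ a hz' hm⟩
    rcases Nat.eq_zero_or_pos m with rfl | h <;> omega
  have hne : ((-1 : K) ^ n) ≠ 0 := pow_ne_zero _ (neg_ne_zero.2 one_ne_zero)
  have hcard : ((Finset.univ : Finset (Subgroup.center SLn)).erase 1).card = Nat.card (Subgroup.center SLn) - 1 := by
    rw [Finset.card_erase_of_mem (Finset.mem_univ _), Finset.card_univ, Nat.card_eq_fintype_card]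
  have hrest : ∀ B, (∀ m, 2 * m ≤ n → 1 ≤ m → fibreSum m ((-1 : K) ^ n) ≤ B) →
      ∑ z ∈ (Finset.univ : Finset (Subgroup.center SLn)).erase 1,
        Nat.card {C : ConjClasses SLn // IsConj C.out ((z : SLn) * C.out)} ≤
      (Nat.card (Subgroup.center SLn) - 1) * B := fun B hB => by
    rw [← hcard, ← smul_eq_mul]
    refine Finset.sum_le_card_nsmul _ _ _ fun z hz => ?_
    obtain ⟨m, h2m, hm1, hm⟩ := hone z hz
    exact hm.trans (hB m h2m hm1)
  rcases (show n = 2 ∨ n = 3 ∨ n = 4 ∨ 5 ≤ n by omega) with rfl | rfl | rfl | hn5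
  · have hB := hrest 1 fun m h2 h1 => (fibreSum_le m _ hne).1 (by omega)
    have := Nat.le_of_dvd (by norm_num) hdn
    have := hk2 rfl
    simp only [show 2 - 1 = 1 from rfl, show 2 - 2 = 0 from rfl, pow_one, pow_zero, mul_one] at this hB ⊢
    omega
  · have hB := hrest 1 fun m h2 h1 => (fibreSum_le m _ hne).1 (by omega)
    have := Nat.le_of_dvd (by norm_num) hdn
    have := hk3 le_rfl
    simp only [show 3 - 1 = 2 from rfl, show 3 - 2 = 1 from rfl, pow_one, mul_one] at this hB ⊢
    omega
  · have hB := hrest (q + 4) fun m h2 h1 => by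
      rcases (show m = 1 ∨ m = 2 by omega) with rfl | rfl
      · exact ((fibreSum_le 1 _ hne).1 rfl).trans (by omega)
      · exact (fibreSum_le 2 _ hne).2.1 rfl
    have := Nat.le_of_dvd (by norm_num) hdn
    have := hk3 (by norm_num)
    have hmul : (Nat.card (Subgroup.center (Matrix.SpecialLinearGroup (Fin 4) K)) - 1) * (q + 4) ≤ 2 * q ^ 2 := by
      rcases (show q ≤ 4 ∨ 5 ≤ q by omega) with hq4 | hq5
      · rw [hd] at hd0 ⊢
        interval_cases hqv : Fintype.card K <;> simp
      · refine le_trans (Nat.mul_le_mul_right _ (show _ ≤ 3 by omega)) ?_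
        nlinarith
    simp only [show 4 - 1 = 3 from rfl, show 4 - 2 = 2 from rfl] at this ⊢
    omega
  · have hmid : ∀ m, 2 * m ≤ n → 1 ≤ m → fibreSum m ((-1 : K) ^ n) ≤ 3 * q ^ (n / 2 - 1) := by
      intro m h2 h1
      refine le_trans ?_ (Nat.mul_le_mul_left 3 (Nat.pow_le_pow_right (by omega) (show m - 1 ≤ n / 2 - 1 by omega)))
      obtain ⟨ha, hb, hc⟩ := fibreSum_le m _ hne
      rcases (show m = 1 ∨ m = 2 ∨ 3 ≤ m by omega) with rfl | rfl | hm3
      · simpa using (ha rfl).trans (show 1 ≤ 3 by norm_num)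
      · refine (hb rfl).trans ?_
        norm_num
        omega
      · refine (hc hm3).trans ?_
        obtain ⟨j, rfl⟩ : ∃ j, m = j + 2 := ⟨m - 2, by omega⟩
        simp only [show j + 2 - 1 = j + 1 by omega, Nat.add_sub_cancel, pow_succ]
        nlinarith [Nat.zero_le (q ^ j), Nat.mul_le_mul_left (q ^ j) (show 2 ≤ q by omega)]
    have hB := hrest _ hmid
    have h3 : (Nat.card (Subgroup.center SLn) - 1) * (3 * q ^ (n / 2 - 1)) ≤ 2 * q ^ (n - 2) := by
      calc _ ≤ q * (3 * q ^ (n / 2 - 1)) := Nat.mul_le_mul_right _ (by omega)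
        _ = 3 * q ^ (n / 2) := by
          rw [mul_left_comm, ← pow_succ', Nat.sub_add_cancel (by omega)]
        _ ≤ (2 * q) * q ^ (n / 2) := Nat.mul_le_mul_right _ (by omega)
        _ = 2 * q ^ (n / 2 + 1) := by rw [mul_assoc, ← pow_succ']
        _ ≤ _ := Nat.mul_le_mul_left _ (Nat.pow_le_pow_right (by omega) (by omega))
    have := hk3 (by omega)
    omega

/-- The lower bound for `PSL_n`. -/
theorem card_PSL_lower (hn : 2 ≤ n) :
    q ^ (n - 1) ≤ Nat.gcd n (q - 1) * Nat.card (ConjClasses (Matrix.ProjectiveSpecialLinearGroup (Fin n) K)) := by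
  classical
  have : Nonempty (Fin n) := ⟨⟨0, by omega⟩⟩
  have hd : Nat.card (Subgroup.center SLn) = Nat.gcd n (q - 1) := by
    rw [Agent.H1.card_center_SL, Fintype.card_fin, Nat.card_eq_fintype_card, Fintype.card_units]
  rw [← hd]
  exact (lt_card_SL hn).le.trans card_SL_le_mul_card_PSL

end Cfsg.Agent.H62.ClassNumber
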