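/-
Determinants of centralisers in the general unitary group: every `D / σ D`, `D` the determinant of
a commuting invertible matrix.
-/
import Cfsg.Agent.H66.Unitary
import Cfsg.Agent.H66.SemisimpleUnitary

set_option autoImplicit false

open scoped Matrix

namespace Cfsg.Agent.H62.ClassNumber

open Cfsg.Agent.H66

variable {K : Type*} [Field K] [Fintype K] {q n : ℕ}

set_option maxHeartbeats 200000 in
/-- From a commuting invertible matrix to a commuting unitary one. -/
theorem exists_unitary_commute_det (hK : Fintype.card K = q ^ 2) (g : ↥(Cfsg.GU n K q))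
    (z : GL (Fin n) K) (hz : z * (g : GL (Fin n) K) = (g : GL (Fin n) K) * z) :
    ∃ w : ↥(Cfsg.GU n K q), w * g = g * w ∧ ((w : GL (Fin n) K) : Matrix (Fin n) (Fin n) K).det =
      (z : Matrix (Fin n) (Fin n) K).det / H3.conjQ hK (z : Matrix (Fin n) (Fin n) K).det := by
  classical
  set σ := H3.conjQ hK
  have hσ : ∀ x, σ x = x ^ q := H3.conjQ_apply hK
  have hσσ : ∀ x, σ (σ x) = x := H3.conjQ_conjQ hK
  obtain ⟨e, he⟩ := H3.exists_conj_ne hK
  set τ := sigAdj (n := n) σ with hτ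
  have τadd : ∀ x y, τ (x + y) = τ x + τ y := fun x y => by
    ext i j; simp [τ, sigAdj]
  have τmul : ∀ x y, τ (x * y) = τ y * τ x := fun x y => by
    simp only [τ, sigAdj, Matrix.map_mul, Matrix.transpose_mul]
  have ττ : ∀ x, τ (τ x) = x := fun x => by
    ext i j; simp [τ, sigAdj, hσσ]
  have τ1 : τ (1 : Matrix (Fin n) (Fin n) K) = 1 := by simp [τ, sigAdj]
  have τdet : ∀ x : Matrix (Fin n) (Fin n) K, (τ x).det = σ x.det := fun x => by
    simp [τ, sigAdj, Matrix.det_transpose, RingHom.map_det]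
  set a : Matrix (Fin n) (Fin n) K := ((g : GL (Fin n) K) : Matrix (Fin n) (Fin n) K) with ha
  set p : Matrix (Fin n) (Fin n) K := (z : Matrix (Fin n) (Fin n) K) with hp
  have hA : τ a * a = 1 := (mem_GU_iff σ hσ hσσ _).1 g.2
  have hA' : a * τ a = 1 := mul_eq_one_comm.1 hA
  have hpa : Commute p a := congrArg Units.val hz
  have hτa : ∀ x, Commute x a → Commute (τ x) a := fun x hx => by
    have h1 : τ a * τ x = τ x * τ a := by rw [← τmul, ← τmul, hx.eq]
    calc τ x * a = a * (τ a * τ x) * a := by rw [← mul_assoc a, hA', one_mul]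
      _ = a * τ x * (τ a * a) := by rw [h1]; noncomm_ring
      _ = a * τ x := by rw [hA, mul_one]
  have hsA : Commute (τ p * p) a := (hτa p hpa).mul_left hpa
  have hτp : IsUnit (τ p) := by
    rw [Matrix.isUnit_iff_isUnit_det, τdet]
    exact ((Matrix.isUnit_iff_isUnit_det p).1 z.isUnit).map σ
  obtain ⟨y, hy, hyy, hyc, hyτ⟩ := exists_adjoint_norm_eq τ τadd τmul ττ (s := τ p * p)
    (ε := Matrix.scalar (Fin n) e) (hτp.mul z.isUnit) (by rw [τmul, ττ])
    (Matrix.scalar_commute e (fun r => mul_comm e r) _).symm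
    (Matrix.scalar_commute e (fun r => mul_comm e r) _)
    (by
      have : τ (Matrix.scalar (Fin n) e) = Matrix.scalar (Fin n) (σ e) := by
        simp [τ, sigAdj, Matrix.diagonal_map]
      rw [this, ← map_sub]
      exact (sub_ne_zero.2 (Ne.symm he)).isUnit.map _)
  have hay : Commute a y := hyc a hsA.symm (Matrix.scalar_commute e (fun r => mul_comm e r) _).symm (by
    have : τ (Matrix.scalar (Fin n) e) = Matrix.scalar (Fin n) (σ e) := by
      simp [τ, sigAdj, Matrix.diagonal_map]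
    rw [this]
    exact (Matrix.scalar_commute (σ e) (fun r => mul_comm _ r) _).symm)
  have hyτu : IsUnit (τ y) := by
    rw [Matrix.isUnit_iff_isUnit_det, τdet]
    exact ((Matrix.isUnit_iff_isUnit_det y).1 hy).map σ
  set Y : GL (Fin n) K := hy.unit with hY
  set Y' : GL (Fin n) K := hyτu.unit with hY'
  have hU : z * Y⁻¹ ∈ Cfsg.GU n K q := by
    rw [mem_GU_iff σ hσ hσσ]
    set yi : Matrix (Fin n) (Fin n) K := ((Y⁻¹ : GL (Fin n) K) : Matrix (Fin n) (Fin n) K) with hyi
    change τ (p * yi) * (p * yi) = 1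
    have h0 : y * yi = 1 := Y.mul_inv
    have h1 : τ yi * τ y = 1 := by rw [← τmul, h0, τ1]
    calc τ (p * yi) * (p * yi) = τ yi * (τ p * p) * yi := by rw [τmul]; noncomm_ring
      _ = (τ yi * τ y) * (y * yi) := by rw [← hyy]; noncomm_ring
      _ = 1 := by rw [h1, h0, one_mul]
  have hV : Y * Y'⁻¹ ∈ Cfsg.GU n K q := by
    rw [mem_GU_iff σ hσ hσσ]
    set yi : Matrix (Fin n) (Fin n) K := ((Y'⁻¹ : GL (Fin n) K) : Matrix (Fin n) (Fin n) K) with hyi
    change τ (y * yi) * (y * yi) = 1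
    have h0 : τ y * yi = 1 := Y'.mul_inv
    have h1 : τ yi * y = 1 := by
      have := congrArg τ h0
      rwa [τmul, ττ, τ1] at this
    calc τ (y * yi) * (y * yi) = τ yi * (τ y * y) * yi := by rw [τmul]; noncomm_ring
      _ = τ yi * (y * τ y) * yi := by rw [hyτ.eq]
      _ = (τ yi * y) * (τ y * yi) := by noncomm_ring
      _ = 1 := by rw [h1, h0, one_mul]
  have hYv : (Y : Matrix (Fin n) (Fin n) K) = y := hy.unit_spec
  have hY'v : (Y' : Matrix (Fin n) (Fin n) K) = τ y := hyτu.unit_spec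
  have hYg : Commute Y (g : GL (Fin n) K) := Units.ext (by
    rw [Units.val_mul, Units.val_mul, hYv, ← ha]; exact hay.symm.eq)
  have hY'g : Commute Y' (g : GL (Fin n) K) := Units.ext (by
    rw [Units.val_mul, Units.val_mul, hY'v, ← ha]; exact (hτa y hay.symm).eq)
  have hzg : Commute z (g : GL (Fin n) K) := hz
  have hcu : Commute (z * Y⁻¹) (g : GL (Fin n) K) := hzg.mul_left hYg.inv_left
  have hcv : Commute (Y * Y'⁻¹) (g : GL (Fin n) K) := hYg.mul_left hY'g.inv_left
  refine ⟨⟨z * Y⁻¹, hU⟩ * ⟨z * Y⁻¹, hU⟩ * ⟨Y * Y'⁻¹, hV⟩, Subtype.ext ?_, ?_⟩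
  · rw [Subgroup.coe_mul, Subgroup.coe_mul, Subgroup.coe_mul, Subgroup.coe_mul]
    exact ((hcu.mul_left hcu).mul_left hcv).eq
  have hYd : ∀ u : GL (Fin n) K, ((u⁻¹ : GL (Fin n) K) : Matrix (Fin n) (Fin n) K).det =
      ((u : Matrix (Fin n) (Fin n) K).det)⁻¹ := fun u => by
    rw [Matrix.coe_units_inv, Matrix.det_nonsing_inv, Ring.inverse_eq_inv]
  simp only [Subgroup.coe_mul, Units.val_mul, Matrix.det_mul, hYd]
  rw [hYv, hY'v, τdet]
  have hd := congrArg Matrix.det hyy
  rw [Matrix.det_mul, Matrix.det_mul, τdet, τdet] at hd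
  have hy0 : y.det ≠ 0 := ((Matrix.isUnit_iff_isUnit_det y).1 hy).ne_zero
  have hp0 : p.det ≠ 0 := Matrix.GeneralLinearGroup.det_ne_zero z
  have hσy0 : σ y.det ≠ 0 := (map_ne_zero σ).2 hy0
  have hσp0 : σ p.det ≠ 0 := (map_ne_zero σ).2 hp0
  field_simp
  linear_combination (-p.det) * hd

end Cfsg.Agent.H62.ClassNumber
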