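/-
Elementary divisors of unitary matrices are permuted by the twisted reciprocal.
-/
import Cfsg.Agent.H62.ClassNumber.Param
import Cfsg.Agent.H66.SemisimpleUnitary
import Cfsg.Agent.H67.DualRank

set_option autoImplicit false

open Polynomial Module

namespace Cfsg.Agent.H62.ClassNumber

open Cfsg.Agent.H66

universe u

variable {K : Type u} [Field K] [Finite K] {n : ℕ}

/-- The reversed polynomial at a unit. -/
theorem aeval_reverse_unit (g : (Matrix (Fin n) (Fin n) K)ˣ) (P : K[X]) :
    aeval (g : Matrix (Fin n) (Fin n) K) P.reverse =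
      ((g ^ P.natDegree : (Matrix (Fin n) (Fin n) K)ˣ) : Matrix (Fin n) (Fin n) K) *
        aeval ((g⁻¹ : (Matrix (Fin n) (Fin n) K)ˣ) : Matrix (Fin n) (Fin n) K) P := by
  rw [aeval_eq_sum_range' (Nat.lt_succ_of_le (reverse_natDegree_le P)), aeval_eq_sum_range, Finset.mul_sum,
    ← Finset.sum_range_reflect]
  refine Finset.sum_congr rfl fun i hi => ?_
  have hi' : i ≤ P.natDegree := Nat.lt_succ_iff.1 (Finset.mem_range.1 hi)
  have h1 : P.natDegree + 1 - 1 - i = P.natDegree - i := by omega
  rw [mul_smul_comm, h1, coeff_reverse, revAt_le (Nat.sub_le _ _), Nat.sub_sub_self hi',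
    ← Units.val_pow_eq_pow_val, ← Units.val_pow_eq_pow_val, ← Units.val_mul, inv_pow, ← pow_sub g hi']

/-- A polynomial and its twisted reciprocal have kernels of equal dimension at a unitary matrix. -/
theorem finrank_ker_dualPoly (σ : K →+* K) (hσσ : ∀ x, σ (σ x) = x)
    (g : (Matrix (Fin n) (Fin n) K)ˣ) (hg : sigAdj σ (g : Matrix (Fin n) (Fin n) K) * g = 1)
    (P : K[X]) (h0 : P.coeff 0 ≠ 0) :
    finrank K (LinearMap.ker (aeval (Matrix.toLin' (g : Matrix (Fin n) (Fin n) K)) (H67.dualPoly σ P))) =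
      finrank K (LinearMap.ker (aeval (Matrix.toLin' (g : Matrix (Fin n) (Fin n) K)) P)) := by
  classical
  have hrank : (aeval (g : Matrix (Fin n) (Fin n) K) (H67.dualPoly σ P)).rank =
      (aeval (g : Matrix (Fin n) (Fin n) K) P).rank := by
    have hinv : ((g⁻¹ : (Matrix (Fin n) (Fin n) K)ˣ) : Matrix (Fin n) (Fin n) K) =
        sigAdj σ (g : Matrix (Fin n) (Fin n) K) := by
      refine (left_inv_eq_right_inv (a := (g : Matrix (Fin n) (Fin n) K)) ?_ ?_).symm
      · exact hg
      · exact g.mul_inv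
    rw [H67.dualPoly, map_mul, aeval_C, ← Algebra.smul_def, Matrix.rank_smul_of_mem_nonZeroDivisors _ (mem_nonZeroDivisors_of_ne_zero (inv_ne_zero ((map_ne_zero σ).2 h0))),
      aeval_reverse_unit, Matrix.rank_mul_eq_right_of_isUnit_det _ _
        ((Matrix.isUnit_iff_isUnit_det _).1 (g ^ _ : (Matrix (Fin n) (Fin n) K)ˣ).isUnit), hinv]
    -- transport `aeval` through the semilinear anti-involution
    have key : aeval (sigAdj σ (g : Matrix (Fin n) (Fin n) K)) (P.map σ) =
        sigAdj σ (aeval (g : Matrix (Fin n) (Fin n) K) P) := by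
      rw [aeval_eq_sum_range, aeval_eq_sum_range, natDegree_map]
      simp only [sigAdj]
      rw [← RingHom.mapMatrix_apply, ← RingHom.mapMatrix_apply, map_sum, Matrix.transpose_sum]
      refine Finset.sum_congr rfl fun i _ => ?_
      rw [coeff_map, ← Matrix.transpose_pow, ← map_pow, RingHom.mapMatrix_apply, RingHom.mapMatrix_apply]
      ext a b
      simp
    rw [key, sigAdj, Matrix.rank_transpose]
    exact H67.rank_map_eq hσσ _
  have h1 := (Matrix.toLin' (aeval (g : Matrix (Fin n) (Fin n) K) (H67.dualPoly σ P))).finrank_range_add_finrank_ker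
  have h2 := (Matrix.toLin' (aeval (g : Matrix (Fin n) (Fin n) K) P)).finrank_range_add_finrank_ker
  have h3 : finrank K (LinearMap.range (Matrix.toLin' (aeval (g : Matrix (Fin n) (Fin n) K) (H67.dualPoly σ P)))) =
      finrank K (LinearMap.range (Matrix.toLin' (aeval (g : Matrix (Fin n) (Fin n) K) P))) := hrank
  rw [aeval_toLin', aeval_toLin']
  omega

/-- The twisted reciprocal fixes each product of elementary divisors of one exponent. -/
theorem dualPoly_prod_eq (σ : K →+* K) (hσσ : ∀ x, σ (σ x) = x)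
    (g : (Matrix (Fin n) (Fin n) K)ˣ) (hg : sigAdj σ (g : Matrix (Fin n) (Fin n) K) * g = 1)
    {ι : Type*} [Fintype ι] {p : ι → K[X]} {e : ι → ℕ}
    (hf : IsDecomp (Matrix.toLin' (g : Matrix (Fin n) (Fin n) K)) p e) (hp0 : ∀ i, (p i).coeff 0 ≠ 0) (j : ℕ) :
    H67.dualPoly σ (∏ i ∈ Finset.univ.filter (fun i => e i = j + 1), p i) =
      ∏ i ∈ Finset.univ.filter (fun i => e i = j + 1), p i := by
  classical
  have h1 : H67.dualPoly σ (1 : K[X]) = 1 := by simpa using H67.dualPoly_pow (σ := σ) (1 : K[X]) 0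
  let D : K[X] →* K[X] := ⟨⟨H67.dualPoly σ, h1⟩, H67.dualPoly_mul⟩
  show D _ = _
  rw [map_prod, Finset.prod_eq_multiset_prod, Finset.prod_eq_multiset_prod]
  congr 1
  set M := (Finset.univ.filter (fun i => e i = j + 1)).val.map p with hM
  rw [show (fun x => D (p x)) = H67.dualPoly σ ∘ p from rfl, ← Multiset.map_map]
  have hcnt : ∀ P, M.count P = decompCount p e P (j + 1) := fun P => by
    rw [hM, Multiset.count_map, ← Finset.filter_val, ← Finset.card_def, Finset.filter_filter, decompCount,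
      Nat.card_eq_fintype_card, Fintype.card_subtype]
    exact congrArg _ (Finset.filter_congr fun i _ => by simp [eq_comm]; exact and_comm)
  have hmem : ∀ x ∈ M, x.Monic ∧ Irreducible x ∧ x.coeff 0 ≠ 0 := fun x hx => by
    obtain ⟨i, -, rfl⟩ := Multiset.mem_map.1 hx
    exact ⟨hf.monic i, hf.irreducible i, hp0 i⟩
  ext b
  by_cases hb : b.Monic ∧ Irreducible b ∧ b.coeff 0 ≠ 0
  · obtain ⟨hb1, hb2, hb0⟩ := hb
    have hd1 := H67.dualPoly_monic (σ := σ) hb0
    have hd2 := H67.dualPoly_irreducible hσσ hb1 hb0 hb2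
    rw [Multiset.count_map]
    rw [show M.filter (fun a => b = H67.dualPoly σ a) = M.filter (fun a => H67.dualPoly σ b = a) from
      Multiset.filter_congr fun x hx => by
        obtain ⟨hx1, -, hx0⟩ := hmem x hx
        constructor
        · rintro rfl; exact H67.dualPoly_dualPoly hσσ hx1 hx0
        · intro hh; rw [← hh, H67.dualPoly_dualPoly hσσ hb1 hb0],
      ← Multiset.countP_eq_card_filter]
    change M.count (H67.dualPoly σ b) = _
    rw [hcnt, hcnt]
    have hker : ∀ k, finrank K (LinearMap.ker (aeval (Matrix.toLin' (g : Matrix (Fin n) (Fin n) K)) (H67.dualPoly σ b ^ k))) =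
        finrank K (LinearMap.ker (aeval (Matrix.toLin' (g : Matrix (Fin n) (Fin n) K)) (b ^ k))) := fun k => by
      rw [← H67.dualPoly_pow]
      exact finrank_ker_dualPoly σ hσσ g hg _ (by
        rw [coeff_zero_eq_eval_zero, eval_pow, ← coeff_zero_eq_eval_zero]; exact pow_ne_zero _ hb0)
    have e1 := hf.decompCount_formula hb1 hb2 j
    have e2 := hf.decompCount_formula hd1 hd2 j
    rw [hker, hker, hker, H67.dualPoly_natDegree hb0] at e2
    exact Nat.eq_of_mul_eq_mul_left hb2.natDegree_pos (by omega)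
  · rw [Multiset.count_eq_zero_of_notMem, Multiset.count_eq_zero_of_notMem]
    · exact fun h => hb (hmem b h)
    · intro h
      obtain ⟨x, hx, rfl⟩ := Multiset.mem_map.1 h
      obtain ⟨hx1, hx2, hx0⟩ := hmem x hx
      exact hb ⟨H67.dualPoly_monic hx0, H67.dualPoly_irreducible hσσ hx1 hx0 hx2,
        by rw [H67.dualPoly_coeff_zero hx1]; exact inv_ne_zero ((map_ne_zero σ).2 hx0)⟩

end Cfsg.Agent.H62.ClassNumber
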