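/-
Weighted sums over degree vectors for the unitary class numbers.
-/
import Cfsg.Agent.H62.ClassNumber.Tuples

set_option autoImplicit false

namespace Cfsg.Agent.H62.ClassNumber

/-- Vectors `v` with `∑ (j + 1) v j = n`. -/
abbrev DegVec (n : ℕ) : Type := {v : Fin n → Fin (n + 1) // ∑ j : Fin n, ((j : ℕ) + 1) * (v j : ℕ) = n}

/-- The number of self-dual polynomials, multiplicatively. -/
def uWeight (q : ℕ) {n : ℕ} (v : DegVec n) : ℕ :=
  ∏ j : Fin n, if (v.1 j : ℕ) = 0 then 1 else (q + 1) * q ^ ((v.1 j : ℕ) - 1)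

/-- The gcd of the part sizes and `q + 1`. -/
def uGam (q : ℕ) {n : ℕ} (v : DegVec n) : ℕ :=
  Nat.gcd ((Finset.univ.filter fun j => (v.1 j : ℕ) ≠ 0).gcd fun j : Fin n => (j : ℕ) + 1) (q + 1)

/-- Total weight. -/
def uTotal (q n : ℕ) : ℕ := ∑ v : DegVec n, uWeight q v

/-- Total weight with squared gcds. -/
def uWeightSum (q n : ℕ) : ℕ := ∑ v : DegVec n, uGam q v ^ 2 * uWeight q v

/-- The partial products. -/
def uProd (q J : ℕ) : ℚ := ∏ j ∈ Finset.range J, (1 + (1 + 1 / (q : ℚ)) / ((q : ℚ) ^ (j + 1) - 1))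

theorem uTotal_le (q : ℕ) (hq : 2 ≤ q) (k : ℕ) :
    (uTotal q (k + 1) : ℚ) ≤ ((q : ℚ) + 1) * (q : ℚ) ^ k * uProd q k := by
  classical
  have hq0 : (0 : ℚ) < q := by exact_mod_cast (show 0 < q by omega)
  have hq1 : (1 : ℚ) < q := by exact_mod_cast (show 1 < q by omega)
  set c : ℚ := 1 + 1 / (q : ℚ) with hc
  have hc0 : 0 ≤ c := by positivity
  let t : Fin k → Fin (k + 1 + 1) → ℚ := fun j v =>
    if (v : ℕ) = 0 then 1 else c * (1 / (q : ℚ) ^ ((j : ℕ) + 1)) ^ (v : ℕ)
  have ht0 : ∀ j v, 0 ≤ t j v := fun j v => by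
    simp only [t]
    split_ifs <;> positivity
  have hrow : ∀ j : Fin k, ∑ v, t j v ≤ 1 + c / ((q : ℚ) ^ ((j : ℕ) + 1) - 1) := by
    intro j
    set Q : ℚ := (q : ℚ) ^ ((j : ℕ) + 1)
    have hQ : 1 < Q := one_lt_pow₀ hq1 (Nat.succ_ne_zero _)
    rw [Fin.sum_univ_succ]
    refine add_le_add (by simp [t]) ?_
    have e : ∀ i : Fin (k + 1), t j i.succ = c / Q * (1 / Q) ^ (i : ℕ) := fun i => by
      simp only [t, Fin.val_succ, Nat.succ_ne_zero, if_false]
      rw [pow_succ]
      ring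
    rw [Finset.sum_congr rfl fun i _ => e i, ← Finset.mul_sum, Fin.sum_univ_eq_sum_range fun i => (1 / Q) ^ i]
    have hg := geom_sum_mul (1 / Q) (k + 1)
    have hS : (∑ i ∈ Finset.range (k + 1), (1 / Q) ^ i) * (1 - 1 / Q) ≤ 1 := by
      have : 0 ≤ (1 / Q) ^ (k + 1) := by positivity
      linarith
    have h1 : (0 : ℚ) < 1 - 1 / Q := by
      rw [sub_pos, div_lt_one (by linarith)]; exact hQ
    calc c / Q * ∑ i ∈ Finset.range (k + 1), (1 / Q) ^ i ≤ c / Q * (1 / (1 - 1 / Q)) := by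
          refine mul_le_mul_of_nonneg_left ?_ (by positivity)
          rw [le_div_iff₀ h1]
          exact hS
      _ = c / (Q - 1) := by
          have h2 : Q - 1 ≠ 0 := by linarith
          field_simp
  let tail : DegVec (k + 1) → (Fin k → Fin (k + 1 + 1)) := fun v j => v.1 j.succ
  have htail : Function.Injective tail := fun v w h => by
    have h0 : ∀ j : Fin k, v.1 j.succ = w.1 j.succ := fun j => congrFun h j
    refine Subtype.ext (funext fun j => Fin.cases ?_ h0 j)
    have hv := v.2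
    have hw := w.2
    rw [Fin.sum_univ_succ] at hv hw
    simp only [h0] at hv
    simp only [Fin.val_zero, zero_add, one_mul] at hv hw
    exact Fin.ext (by omega)
  have hterm : ∀ v : DegVec (k + 1), (uWeight q v : ℚ) ≤ (q : ℚ) ^ (k + 1) * c * ∏ j, t j (tail v j) := by
    intro v
    have h0 : (uWeight q v : ℚ) = ∏ j : Fin (k + 1),
        (q : ℚ) ^ (((j : ℕ) + 1) * (v.1 j : ℕ)) *
          (if (v.1 j : ℕ) = 0 then 1 else c * (1 / (q : ℚ) ^ (j : ℕ)) ^ (v.1 j : ℕ)) := by
      rw [uWeight, Nat.cast_prod]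
      refine Finset.prod_congr rfl fun j _ => ?_
      split_ifs with h
      · simp [h]
      · obtain ⟨e, he⟩ : ∃ e, (v.1 j : ℕ) = e + 1 := ⟨_, (Nat.succ_pred_eq_of_pos (Nat.pos_of_ne_zero h)).symm⟩
        rw [he, Nat.add_sub_cancel, hc, Nat.cast_mul, Nat.cast_pow, Nat.cast_add, Nat.cast_one, one_div_pow, ← pow_mul,
          show ((j : ℕ) + 1) * (e + 1) = (j : ℕ) * (e + 1) + e + 1 by ring, pow_succ, pow_add]
        field_simp
    rw [h0, Finset.prod_mul_distrib, Finset.prod_pow_eq_pow_sum, v.2, Fin.prod_univ_succ, mul_assoc]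
    refine mul_le_mul_of_nonneg_left (mul_le_mul_of_nonneg_right ?_ ?_) (by positivity)
    · have hc1 : (1 : ℚ) ≤ c := by
        rw [hc]; exact le_add_of_nonneg_right (by positivity)
      split_ifs with h
      · exact hc1
      · simp
    · exact Finset.prod_nonneg fun j _ => by split_ifs <;> positivity
  have hsum : ∑ j : Fin k → Fin (k + 1 + 1), ∏ i, t i (j i) ≤ uProd q k := by
    rw [← Fintype.prod_sum, uProd, ← Fin.prod_univ_eq_prod_range (fun j => 1 + c / ((q : ℚ) ^ (j + 1) - 1))]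
    exact Finset.prod_le_prod (fun j _ => Finset.sum_nonneg fun v _ => ht0 j v) fun j _ => hrow j
  calc (uTotal q (k + 1) : ℚ) ≤ ∑ v : DegVec (k + 1), (q : ℚ) ^ (k + 1) * c * ∏ j, t j (tail v j) := by
        rw [uTotal, Nat.cast_sum]; exact Finset.sum_le_sum fun v _ => hterm v
    _ = (q : ℚ) ^ (k + 1) * c * ∑ x ∈ Finset.univ.image tail, ∏ j, t j (x j) := by
        rw [Finset.mul_sum, Finset.sum_image fun a _ b _ h => htail h]
    _ ≤ (q : ℚ) ^ (k + 1) * c * uProd q k := by
        refine mul_le_mul_of_nonneg_left (le_trans ?_ hsum) (by positivity)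
        exact Finset.sum_le_sum_of_subset_of_nonneg (Finset.subset_univ _)
          fun x _ _ => Finset.prod_nonneg fun j _ => ht0 j _
    _ = ((q : ℚ) + 1) * (q : ℚ) ^ k * uProd q k := by rw [hc]; field_simp; ring

theorem uGam_pos (q : ℕ) {n : ℕ} (v : DegVec n) : 0 < uGam q v := Nat.gcd_pos_of_pos_right _ (Nat.succ_pos _)

theorem uGam_dvd (q : ℕ) {n : ℕ} (v : DegVec n) : uGam q v ∣ n ∧ uGam q v ∣ q + 1 := by
  refine ⟨?_, Nat.gcd_dvd_right _ _⟩
  conv_rhs => rw [← v.2]
  refine Finset.dvd_sum fun j _ => ?_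
  by_cases h : (v.1 j : ℕ) = 0
  · simp [h]
  · exact dvd_mul_of_dvd_left ((Nat.gcd_dvd_left _ _).trans
      (Finset.gcd_dvd (f := fun j : Fin n => (j : ℕ) + 1) (Finset.mem_filter.2 ⟨Finset.mem_univ _, h⟩))) _

theorem sum_uGam_eq_le (q : ℕ) {n d : ℕ} (hd : 0 < d) (hdn : d ∣ n) :
    ∑ v ∈ (Finset.univ : Finset (DegVec n)).filter (fun v => uGam q v = d), uWeight q v ≤
      uTotal q (n / d) := by
  classical
  obtain ⟨m, rfl⟩ := hdn
  rw [Nat.mul_div_cancel_left _ hd]
  let idx : Fin m → Fin (d * m) := fun i => ⟨d * ((i : ℕ) + 1) - 1, by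
    have := Nat.mul_le_mul_left d (Nat.succ_le_of_lt i.2)
    have : 0 < d * ((i : ℕ) + 1) := Nat.mul_pos hd (Nat.succ_pos _)
    simp only [Nat.succ_eq_add_one] at *
    omega⟩
  have hidx : ∀ i, (idx i : ℕ) + 1 = d * ((i : ℕ) + 1) := fun i => by
    have : 0 < d * ((i : ℕ) + 1) := Nat.mul_pos hd (Nat.succ_pos _)
    simp only [idx]
    omega
  have hidxinj : Function.Injective idx := fun a b h => by
    have := congrArg (fun x : Fin (d * m) => (x : ℕ) + 1) h
    simp only [hidx] at this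
    exact Fin.ext (by have := Nat.eq_of_mul_eq_mul_left hd this; omega)
  have hout : ∀ v : DegVec (d * m), uGam q v = d → ∀ j, j ∉ Set.range idx →
      (v.1 j : ℕ) = 0 := fun v hv j hj => by
    by_contra h
    have hdj : uGam q v ∣ (j : ℕ) + 1 := (Nat.gcd_dvd_left _ _).trans
      (Finset.gcd_dvd (f := fun j : Fin (d * m) => (j : ℕ) + 1) (Finset.mem_filter.2 ⟨Finset.mem_univ _, h⟩))
    rw [hv] at hdj
    obtain ⟨k, hk⟩ := hdj
    have hk0 : 1 ≤ k := by
      rcases Nat.eq_zero_or_pos k with rfl | h0 <;> omega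
    have hkm : k ≤ m := Nat.le_of_mul_le_mul_left (by rw [← hk]; exact j.2) hd
    exact hj ⟨⟨k - 1, by omega⟩, Fin.ext (by
      have := hidx ⟨k - 1, by omega⟩
      rw [show ((⟨k - 1, _⟩ : Fin m) : ℕ) + 1 = k from Nat.sub_add_cancel hk0] at this
      omega)⟩
  have hsum : ∀ v : DegVec (d * m), uGam q v = d →
      ∑ i : Fin m, ((i : ℕ) + 1) * (v.1 (idx i) : ℕ) = m := fun v hv => by
    refine Nat.eq_of_mul_eq_mul_left hd ?_
    rw [Finset.mul_sum]
    conv_rhs => rw [← v.2]
    refine Fintype.sum_of_injective idx hidxinj _ _ (fun j hj => by rw [hout v hv j hj, mul_zero]) fun i => ?_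
    rw [hidx, mul_assoc]
  have hle : ∀ v : DegVec (d * m), uGam q v = d → ∀ i, (v.1 (idx i) : ℕ) < m + 1 := fun v hv i => by
    have h := Finset.single_le_sum (f := fun i : Fin m => ((i : ℕ) + 1) * (v.1 (idx i) : ℕ))
      (fun _ _ => Nat.zero_le _) (Finset.mem_univ i)
    rw [hsum v hv] at h
    have := Nat.le_mul_of_pos_left (v.1 (idx i) : ℕ) (Nat.succ_pos (i : ℕ))
    simp only [Nat.succ_eq_add_one] at this
    omega
  let G : {v : DegVec (d * m) // uGam q v = d} → DegVec m :=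
    fun v => ⟨fun i => ⟨v.1.1 (idx i), hle v.1 v.2 i⟩, hsum v.1 v.2⟩
  have hGw : ∀ v, uWeight q (G v) = uWeight q v.1 := fun v => by
    refine Fintype.prod_of_injective idx hidxinj _ _ (fun j hj => ?_) fun i => rfl
    rw [if_pos (hout v.1 v.2 j hj)]
  have hG : Function.Injective G := fun v w h => by
    refine Subtype.ext (Subtype.ext (funext fun j => Fin.ext ?_))
    by_cases hj : j ∈ Set.range idx
    · obtain ⟨i, rfl⟩ := hj
      exact congrArg (fun u : DegVec m => (u.1 i : ℕ)) h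
    · rw [hout _ v.2 j hj, hout _ w.2 j hj]
  rw [Finset.sum_subtype (p := fun v => uGam q v = d) _ (fun v => by simp), uTotal]
  calc ∑ v : {v : DegVec (d * m) // uGam q v = d}, uWeight q v.1
      = ∑ u ∈ Finset.univ.image G, uWeight q u := by
        rw [Finset.sum_image fun a _ b _ h => hG h]
        exact Finset.sum_congr rfl fun v _ => (hGw v).symm
    _ ≤ _ := Finset.sum_le_sum_of_subset (Finset.subset_univ _)

/-- The weighted sum through divisors. -/
theorem uWeightSum_le (q n : ℕ) (hn : 1 ≤ n) :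
    uWeightSum q n ≤ uTotal q n +
      ∑ d ∈ gamDivisors n (q + 1), (d ^ 2 - 1) * uTotal q (n / d) := by
  classical
  have h1 : uWeightSum q n = uTotal q n + ∑ v : DegVec n, (uGam q v ^ 2 - 1) * uWeight q v := by
    rw [uWeightSum, uTotal, ← Finset.sum_add_distrib]
    refine Finset.sum_congr rfl fun v _ => ?_
    rw [Nat.sub_mul, one_mul, Nat.add_sub_cancel']
    exact Nat.le_mul_of_pos_left _ (pow_pos (uGam_pos q v) 2)
  rw [h1]
  refine Nat.add_le_add_left ?_ _
  have hmem : ∀ v ∈ (Finset.univ : Finset (DegVec n)).filter (fun v => uGam q v ≠ 1),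
      uGam q v ∈ gamDivisors n (q + 1) := fun v hv => by
    obtain ⟨hdn, hdq⟩ := uGam_dvd q v
    have := uGam_pos q v
    have := (Finset.mem_filter.1 hv).2
    exact Finset.mem_filter.2 ⟨Finset.mem_Icc.2 ⟨by omega, Nat.le_of_dvd (by omega) hdn⟩, hdn, hdq⟩
  rw [← Finset.sum_filter_of_ne (p := fun v => uGam q v ≠ 1) (fun v _ h hh => h (by rw [hh]; simp)),
    ← Finset.sum_fiberwise_of_maps_to hmem]
  refine Finset.sum_le_sum fun d hd => ?_
  rw [Finset.sum_congr rfl fun v hv => by rw [(Finset.mem_filter.1 hv).2], ← Finset.mul_sum]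
  obtain ⟨hd2, hdn, -⟩ := Finset.mem_filter.1 hd
  refine Nat.mul_le_mul_left _ (le_trans (Finset.sum_le_sum_of_subset ?_)
    (sum_uGam_eq_le q (by have := (Finset.mem_Icc.1 hd2).1; omega) hdn))
  intro v hv
  exact Finset.mem_filter.2 ⟨Finset.mem_univ _, (Finset.mem_filter.1 hv).2⟩

theorem uProd_nonneg (q : ℕ) (hq : 2 ≤ q) (j : ℕ) : 0 ≤ (1 + 1 / (q : ℚ)) / ((q : ℚ) ^ (j + 1) - 1) := by
  have hq1 : (1 : ℚ) < q := by exact_mod_cast (show 1 < q by omega)
  have : (1 : ℚ) < (q : ℚ) ^ (j + 1) := one_lt_pow₀ hq1 (Nat.succ_ne_zero _)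
  exact div_nonneg (by positivity) (by linarith)

theorem uProd_mono (q : ℕ) (hq : 2 ≤ q) {a b : ℕ} (h : a ≤ b) : uProd q a ≤ uProd q b := by
  refine Finset.prod_le_prod_of_subset_of_one_le (Finset.range_mono h) ?_ ?_
  · intro j _; linarith [uProd_nonneg q hq j]
  · intro j _ _; linarith [uProd_nonneg q hq j]

/-- The products for `q = 2`. -/
theorem uProd_two_le (J : ℕ) : uProd 2 J ≤ 28 / 5 := by
  have key : ∀ i, uProd 2 (i + 5) ≤ 28 / 5 * (1 - (16 / 5) * (1 / 2) ^ (i + 6)) := by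
    intro i
    induction i with
    | zero => norm_num [uProd, Finset.prod_range_succ]
    | succ i ih =>
      rw [show i + 1 + 5 = (i + 5) + 1 by omega, uProd, Finset.prod_range_succ, ← uProd]
      push_cast
      set r : ℚ := (1 / 2) ^ (i + 6) with hr
      have hr0 : 0 < r := by positivity
      have hr1 : r ≤ 1 / 64 := le_trans (pow_le_pow_of_le_one (by norm_num) (by norm_num) (show 6 ≤ i + 6 by omega)) (by norm_num)
      have e : (2 : ℚ) ^ (i + 5 + 1) = 1 / r := by rw [hr, show i + 5 + 1 = i + 6 by omega, one_div_pow, one_div_one_div]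
      have e' : (1 / 2 : ℚ) ^ (i + 1 + 6) = r / 2 := by rw [hr, show i + 1 + 6 = (i + 6) + 1 by omega, pow_succ]; ring
      rw [e, e']
      have hx : (1 + 1 / (2 : ℚ)) / (1 / r - 1) ≤ 32 / 21 * r := by
        have : (1 + 1 / (2 : ℚ)) / (1 / r - 1) = 3 / 2 * r / (1 - r) := by field_simp; ring
        rw [this, div_le_iff₀ (by linarith)]
        nlinarith
      have hx0 : 0 ≤ (1 + 1 / (2 : ℚ)) / (1 / r - 1) := by
        refine div_nonneg (by norm_num) ?_
        rw [sub_nonneg, le_div_iff₀ hr0]; linarith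
      calc uProd 2 (i + 5) * (1 + (1 + 1 / (2 : ℚ)) / (1 / r - 1))
          ≤ 28 / 5 * (1 - 16 / 5 * r) * (1 + 32 / 21 * r) := by
            refine mul_le_mul ih (by linarith) (by linarith) ?_
            nlinarith
        _ ≤ _ := by nlinarith
  have h := key J
  have h0 : (0 : ℚ) ≤ (1 / 2) ^ (J + 6) := by positivity
  refine (uProd_mono 2 le_rfl (Nat.le_add_right J 5)).trans ?_
  linarith

/-- The products for `q ≥ 3`. -/
theorem uProd_ge_three_le (q : ℕ) (hq : 3 ≤ q) (J : ℕ) : uProd q J ≤ 5 / 2 := by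
  have hx : ∀ j, (1 + 1 / (q : ℚ)) / ((q : ℚ) ^ (j + 1) - 1) ≤ 2 * (1 / 3) ^ (j + 1) := by
    intro j
    have h3 : (3 : ℚ) ≤ q := by exact_mod_cast hq
    have h1 : 1 / (q : ℚ) ≤ 1 / 3 := by gcongr
    have h2 : (3 : ℚ) ^ (j + 1) ≤ (q : ℚ) ^ (j + 1) := by gcongr
    have h4 : (3 : ℚ) ≤ 3 ^ (j + 1) := by simpa using pow_le_pow_right₀ (show (1 : ℚ) ≤ 3 by norm_num) (show 1 ≤ j + 1 by omega)
    rw [div_le_iff₀ (by linarith), one_div_pow]
    have : 2 * (1 / (3 : ℚ) ^ (j + 1)) * ((q : ℚ) ^ (j + 1) - 1) ≥ 2 * (1 / 3 ^ (j + 1)) * (3 ^ (j + 1) - 1) := by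
      gcongr
    have e : 2 * (1 / (3 : ℚ) ^ (j + 1)) * (3 ^ (j + 1) - 1) = 2 - 2 * (1 / 3 ^ (j + 1)) := by field_simp
    have h5 : 1 / (3 : ℚ) ^ (j + 1) ≤ 1 / 3 := by gcongr
    linarith
  have key : ∀ i, uProd q (i + 1) ≤ 5 / 2 * (1 - (1 / 3) ^ (i + 1)) := by
    intro i
    induction i with
    | zero =>
      rw [uProd, Finset.prod_range_one]
      have := hx 0
      norm_num at this ⊢
      linarith
    | succ i ih =>
      rw [uProd, Finset.prod_range_succ, ← uProd]
      set r : ℚ := (1 / 3) ^ (i + 1) with hr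
      have hr0 : 0 < r := by positivity
      have hr1 : r ≤ 1 / 3 := le_trans (pow_le_pow_of_le_one (by norm_num) (by norm_num) (show 1 ≤ i + 1 by omega)) (by norm_num)
      have h := hx (i + 1)
      rw [pow_succ (1 / 3 : ℚ), ← hr] at h
      rw [pow_succ (1 / 3 : ℚ), ← hr]
      have h0 := uProd_nonneg q (by omega) (i + 1)
      calc uProd q (i + 1) * _ ≤ 5 / 2 * (1 - r) * (1 + 2 * (r * (1 / 3))) := by
            refine mul_le_mul ih (by linarith) (by linarith) ?_
            nlinarith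
        _ ≤ _ := by nlinarith
  refine (uProd_mono q (by omega) (Nat.le_succ J)).trans ?_
  have h0 : (0 : ℚ) ≤ (1 / 3) ^ (J + 1) := by positivity
  have := key J
  linarith

theorem sq_sub_one_le_two (e : ℕ) : (e + 2) ^ 2 - 1 ≤ 2 * 3 ^ (e + 1) := by
  induction e with
  | zero => norm_num
  | succ e ih =>
    rw [pow_succ 3 (e + 1)]
    have h1 : (e + 1 + 2) ^ 2 = (e + 2) ^ 2 + 2 * e + 5 := by ring
    have h2 : 3 ≤ 3 ^ (e + 1) := Nat.le_self_pow (by omega) 3
    have h3 : e + 1 < 3 ^ (e + 1) := Nat.lt_pow_self (by norm_num)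
    omega

theorem sq_sub_one_le_four (e : ℕ) : (e + 2) ^ 2 - 1 ≤ 3 * 4 ^ e := by
  induction e with
  | zero => norm_num
  | succ e ih =>
    rw [pow_succ 4 e]
    have h1 : (e + 1 + 2) ^ 2 = (e + 2) ^ 2 + 2 * e + 5 := by ring
    have h3 : e < 4 ^ e := Nat.lt_pow_self (by norm_num)
    omega

/-- The final numerical bound. -/
theorem uWeightSum_bound (q : ℕ) (hq : 2 ≤ q) (n : ℕ) (hn : 2 ≤ n) :
    50 * uWeightSum q n ≤ 413 * ((q + 1) * q ^ (n - 1)) := by
  have key : (50 : ℚ) * uWeightSum q n ≤ 413 * (((q : ℚ) + 1) * (q : ℚ) ^ (n - 1)) := by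
    have hle : (uWeightSum q n : ℚ) ≤ uTotal q n +
        ∑ d ∈ gamDivisors n (q + 1), ((d ^ 2 - 1 : ℕ) : ℚ) * uTotal q (n / d) := by
      exact_mod_cast uWeightSum_le q n (by omega)
    have hq0 : (0 : ℚ) < q := by exact_mod_cast (show 0 < q by omega)
    set A : ℚ := ((q : ℚ) + 1) * (q : ℚ) ^ (n - 1) with hA
    have hA0 : 0 < A := by positivity
    have hmain : (uTotal q n : ℚ) ≤ A * uProd q (n - 1) := by
      have := uTotal_le q hq (n - 1)
      rwa [Nat.sub_add_cancel (by omega)] at this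
    have hmem : ∀ d ∈ gamDivisors n (q + 1), 2 ≤ d ∧ d ≤ n ∧ d ≤ q + 1 ∧ d ∣ n := fun d hd => by
      obtain ⟨h, h1, h2⟩ := Finset.mem_filter.1 hd
      exact ⟨(Finset.mem_Icc.1 h).1, (Finset.mem_Icc.1 h).2, Nat.le_of_dvd (Nat.succ_pos _) h2, h1⟩
    rcases (show q = 2 ∨ 3 ≤ q by omega) with rfl | hq3
    · have hsub : gamDivisors n 3 ⊆ {3} := fun d hd => by
        obtain ⟨h, -, h2⟩ := Finset.mem_filter.1 hd
        have := (Nat.dvd_prime Nat.prime_three).1 h2
        have := (Finset.mem_Icc.1 h).1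
        simp only [Finset.mem_singleton]
        omega
      rcases Finset.subset_singleton_iff.1 hsub with he | he
      · rw [he, Finset.sum_empty, add_zero] at hle
        nlinarith [uProd_two_le (n - 1)]
      · obtain ⟨-, -, -, hdn⟩ := hmem 3 (he.symm ▸ Finset.mem_singleton_self 3)
        rw [he, Finset.sum_singleton] at hle
        obtain ⟨m, rfl⟩ := hdn
        rw [Nat.mul_div_cancel_left _ (by norm_num : 0 < 3)] at hle
        have hN := uTotal_le 2 le_rfl (m - 1)
        rw [Nat.sub_add_cancel (by omega : 1 ≤ m)] at hN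
        rcases (show m = 1 ∨ m = 2 ∨ 3 ≤ m by omega) with rfl | rfl | hm
        · have e1 : (uTotal 2 (3 * 1) : ℚ) ≤ 45 :=
            hmain.trans (by norm_num [hA, uProd, Finset.prod_range_succ])
          have e2 : (uTotal 2 1 : ℚ) ≤ 3 := hN.trans (by norm_num [uProd])
          have e3 : A = 12 := by norm_num [hA]
          have e4 : ((3 ^ 2 - 1 : ℕ) : ℚ) = 8 := by norm_num
          rw [e4] at hle
          linarith
        · have e1 : (uTotal 2 (3 * 2) : ℚ) ≤ A * (28 / 5) :=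
            hmain.trans (mul_le_mul_of_nonneg_left (uProd_two_le _) hA0.le)
          have e2 : (uTotal 2 2 : ℚ) ≤ 15 := hN.trans (by norm_num [uProd])
          have e3 : A = 96 := by norm_num [hA]
          have e4 : ((3 ^ 2 - 1 : ℕ) : ℚ) = 8 := by norm_num
          rw [e4] at hle
          linarith
        · have e1 : (uTotal 2 (3 * m) : ℚ) ≤ A * (28 / 5) :=
            hmain.trans (mul_le_mul_of_nonneg_left (uProd_two_le _) hA0.le)
          have hpow : (2 : ℚ) ^ (m - 1) * 64 ≤ (2 : ℚ) ^ (3 * m - 1) := by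
            rw [show (64 : ℚ) = 2 ^ 6 by norm_num, ← pow_add]
            exact pow_le_pow_right₀ (by norm_num) (by omega)
          have h2 : (uTotal 2 m : ℚ) ≤ 3 * 2 ^ (m - 1) * (28 / 5) := by
            refine hN.trans ?_
            push_cast
            rw [show (2 : ℚ) + 1 = 3 by norm_num]
            exact mul_le_mul_of_nonneg_left (uProd_two_le _) (by positivity)
          have e3 : A = 3 * 2 ^ (3 * m - 1) := by rw [hA]; norm_num
          have e4 : ((3 ^ 2 - 1 : ℕ) : ℚ) = 8 := by norm_num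
          rw [e4] at hle
          linarith
    · have hP := mul_le_mul_of_nonneg_left (uProd_ge_three_le q hq3 (n - 1)) hA0.le
      have hterm : ∀ d ∈ gamDivisors n (q + 1), ((d ^ 2 - 1 : ℕ) : ℚ) * uTotal q (n / d) ≤
          A * (if d = n then 2 else 5 / 6 * (4 / 9) ^ (d - 2)) := by
        intro d hd
        obtain ⟨h2, hdn', hdq, hdvd⟩ := hmem d hd
        obtain ⟨m, rfl⟩ := hdvd
        rw [Nat.mul_div_cancel_left _ (by omega : 0 < d)]
        have hm : 1 ≤ m := by rcases Nat.eq_zero_or_pos m with rfl | h <;> omega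
        have hN := uTotal_le q hq (m - 1)
        rw [Nat.sub_add_cancel hm] at hN
        split_ifs with hdn
        · obtain rfl : m = 1 := by
            have : d * m = d * 1 := by omega
            exact Nat.eq_of_mul_eq_mul_left (by omega) this
          have hnat : d ^ 2 - 1 ≤ 2 * q ^ (d - 1) := by
            refine le_trans ?_ (Nat.mul_le_mul_left 2 (Nat.pow_le_pow_left hq3 _))
            obtain ⟨e, rfl⟩ : ∃ e, d = e + 2 := ⟨d - 2, by omega⟩
            rw [show e + 2 - 1 = e + 1 by omega]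
            exact sq_sub_one_le_two e
          have hnatq : ((d ^ 2 - 1 : ℕ) : ℚ) ≤ 2 * (q : ℚ) ^ (d - 1) := by exact_mod_cast hnat
          norm_num [uProd] at hN
          rw [hA, mul_one]
          calc ((d ^ 2 - 1 : ℕ) : ℚ) * uTotal q 1 ≤ 2 * (q : ℚ) ^ (d - 1) * ((q : ℚ) + 1) :=
                mul_le_mul hnatq hN (by positivity) (by positivity)
            _ = _ := by ring
        · have hm2 : 2 ≤ m := by
            rcases (show m = 1 ∨ 2 ≤ m by omega) with rfl | h
            · simp at hdn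
            · exact h
          obtain ⟨e, rfl⟩ : ∃ e, d = e + 2 := ⟨d - 2, by omega⟩
          have hnat : (e + 2) ^ 2 - 1 ≤ 3 * 4 ^ e := sq_sub_one_le_four e
          have hnatq : (((e + 2) ^ 2 - 1 : ℕ) : ℚ) ≤ 3 * 4 ^ e := by exact_mod_cast hnat
          have hpow : (q : ℚ) ^ (m - 1) * 9 ^ (e + 1) ≤ (q : ℚ) ^ ((e + 2) * m - 1) := by
            have h9 : (9 : ℚ) ≤ (q : ℚ) ^ 2 := by
              have : (3 : ℚ) ≤ q := by exact_mod_cast hq3
              nlinarith
            calc (q : ℚ) ^ (m - 1) * 9 ^ (e + 1) ≤ (q : ℚ) ^ (m - 1) * ((q : ℚ) ^ 2) ^ (e + 1) := by gcongr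
              _ = (q : ℚ) ^ (m - 1 + 2 * (e + 1)) := by rw [← pow_mul, ← pow_add]
              _ ≤ _ := by
                refine pow_le_pow_right₀ (by exact_mod_cast (show 1 ≤ q by omega)) ?_
                have : 2 * (e + 1) ≤ m * (e + 1) := Nat.mul_le_mul_right _ hm2
                have e1 : (e + 2) * m = m * (e + 1) + m := by ring
                omega
          rw [show e + 2 - 2 = e by omega, hA]
          have hX : (q : ℚ) ^ (m - 1) ≤ (q : ℚ) ^ ((e + 2) * m - 1) / 9 ^ (e + 1) := by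
            rw [le_div_iff₀ (by positivity)]
            exact hpow
          have hN2 : (uTotal q m : ℚ) ≤ ((q : ℚ) + 1) * ((q : ℚ) ^ ((e + 2) * m - 1) / 9 ^ (e + 1)) * (5 / 2) :=
            hN.trans (mul_le_mul (mul_le_mul_of_nonneg_left hX (by positivity)) (uProd_ge_three_le q hq3 _)
              (Finset.prod_nonneg fun j _ => by linarith [uProd_nonneg q hq j]) (by positivity))
          refine (mul_le_mul hnatq hN2 (by positivity) (by positivity)).trans (le_of_eq ?_)
          rw [div_pow, pow_succ]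
          field_simp
          ring
      have hsum : ∑ d ∈ gamDivisors n (q + 1), (if d = n then (2 : ℚ) else 5 / 6 * (4 / 9) ^ (d - 2)) ≤ 7 / 2 := by
        refine le_trans (Finset.sum_le_sum (g := fun d => (if d = n then (2 : ℚ) else 0) + 5 / 6 * (4 / 9) ^ (d - 2))
          fun d _ => ?_) ?_
        · have : (0 : ℚ) ≤ 5 / 6 * (4 / 9) ^ (d - 2) := by positivity
          split_ifs <;> linarith
        rw [Finset.sum_add_distrib, Finset.sum_ite_eq' (gamDivisors n (q + 1)) n (fun _ => (2 : ℚ))]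
        have h1 : (if n ∈ gamDivisors n (q + 1) then (2 : ℚ) else 0) ≤ 2 := by split_ifs <;> norm_num
        have h2 : ∑ d ∈ gamDivisors n (q + 1), (5 / 6 : ℚ) * (4 / 9) ^ (d - 2) ≤ 3 / 2 := by
          calc ∑ d ∈ gamDivisors n (q + 1), (5 / 6 : ℚ) * (4 / 9) ^ (d - 2)
              ≤ ∑ d ∈ (Finset.range n).image (· + 2), (5 / 6 : ℚ) * (4 / 9) ^ (d - 2) := by
                refine Finset.sum_le_sum_of_subset_of_nonneg (fun d hd => ?_) fun d _ _ => by positivity
                obtain ⟨h2, hdn', -, -⟩ := hmem d hd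
                exact Finset.mem_image.2 ⟨d - 2, Finset.mem_range.2 (by omega), by omega⟩
            _ = 5 / 6 * ∑ i ∈ Finset.range n, (4 / 9 : ℚ) ^ i := by
                rw [Finset.sum_image fun a _ b _ h => Nat.add_right_cancel h, Finset.mul_sum]
                exact Finset.sum_congr rfl fun i _ => by rw [Nat.add_sub_cancel]
            _ ≤ _ := by
                have hg := geom_sum_mul (4 / 9 : ℚ) n
                have : (0 : ℚ) ≤ (4 / 9) ^ n := by positivity
                linarith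
        linarith
      have hS := Finset.sum_le_sum hterm
      rw [← Finset.mul_sum] at hS
      have := mul_le_mul_of_nonneg_left hsum hA0.le
      linarith
  exact_mod_cast key

end Cfsg.Agent.H62.ClassNumber
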