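/-
Conjugacy classes of `SU_n(q)` bounded by weighted degree vectors.
-/
import Cfsg.Agent.H62.ClassNumber.UnitaryCentraliser
import Cfsg.Agent.H62.ClassNumber.UnitaryDual
import Cfsg.Agent.H62.ClassNumber.UnitaryNumeric
import Cfsg.Agent.H66.SemisimpleSU

set_option autoImplicit false

open Polynomial Module Cfsg

namespace Cfsg.Agent.H62.ClassNumber

open Cfsg.Agent.H66

universe u

variable {K : Type u} [Field K] [Fintype K] {q n : ℕ}

/-- Self-dual monic polynomials with given degree and constant term. -/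
theorem card_selfDual_le (hK : Fintype.card K = q ^ 2) (d : ℕ) (a : K) :
    Nat.card {f : UPolyDeg K d // H67.dualPoly (H3.conjQ hK) f.1.1 = f.1.1 ∧ f.1.1.coeff 0 = a} ≤ q ^ (d - 1) := by
  classical
  set σ := H3.conjQ hK with hσ
  have hσσ := H3.conjQ_conjQ hK
  have := finite_upolyDeg (K := K) d
  rcases Nat.eq_zero_or_pos d with rfl | hd
  · refine le_trans (Nat.card_le_card_of_injective _ Subtype.val_injective) (le_of_eq ?_)
    rw [upolyDeg_zero.1, pow_zero]
  obtain ⟨m, rfl⟩ : ∃ m, d = m + 1 := ⟨d - 1, by omega⟩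
  rw [Nat.add_sub_cancel]
  by_cases hne : Nonempty {f : UPolyDeg K (m + 1) // H67.dualPoly σ f.1.1 = f.1.1 ∧ f.1.1.coeff 0 = a}
  swap
  · rw [not_nonempty_iff] at hne
    simp
  obtain ⟨f₀⟩ := hne
  have ha0 : a ≠ 0 := f₀.2.2 ▸ f₀.1.1.2.2
  have hσa : σ a ≠ 0 := (map_ne_zero σ).2 ha0
  have haa : a * σ a = 1 := by
    have h := H67.dualPoly_coeff_zero (σ := σ) f₀.1.1.2.1
    rw [f₀.2.1, f₀.2.2] at h
    calc a * σ a = (σ a)⁻¹ * σ a := by rw [← h]
      _ = 1 := inv_mul_cancel₀ hσa
  have hinv : (σ a)⁻¹ = a := inv_eq_of_mul_eq_one_left haa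
  let φ : {f : UPolyDeg K (m + 1) // H67.dualPoly σ f.1.1 = f.1.1 ∧ f.1.1.coeff 0 = a} →
      {b : Fin m → K // ∀ k, b k = a * σ (b k.rev)} := fun f => ⟨fun k => f.1.1.1.coeff (k + 1), fun k => by
    change f.1.1.1.coeff (k + 1) = a * σ (f.1.1.1.coeff ((k.rev : ℕ) + 1))
    conv_lhs => rw [← f.2.1, H67.dualPoly, coeff_C_mul, coeff_reverse, coeff_map, natDegree_map, f.1.2,
      f.2.2, hinv]
    congr 3
    rw [Polynomial.revAt_le (by omega), Fin.val_rev]
    omega⟩
  have hφ : Function.Injective φ := fun f g h => by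
    refine Subtype.ext (Subtype.ext (Subtype.ext (Polynomial.ext fun i => ?_)))
    rcases Nat.eq_zero_or_pos i with rfl | hi
    · rw [f.2.2, g.2.2]
    rcases lt_trichotomy i (m + 1) with hlt | rfl | hgt
    · obtain ⟨k, rfl⟩ : ∃ k : Fin m, (k : ℕ) + 1 = i := ⟨⟨i - 1, by omega⟩, by simp only; omega⟩
      exact congrFun (congrArg Subtype.val h) k
    · have h1 : f.1.1.1.coeff f.1.1.1.natDegree = 1 := f.1.1.2.1
      have h2 : g.1.1.1.coeff g.1.1.1.natDegree = 1 := g.1.1.2.1
      rw [f.1.2] at h1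
      rw [g.1.2] at h2
      rw [h1, h2]
    · rw [coeff_eq_zero_of_natDegree_lt (by rw [f.1.2]; exact hgt),
        coeff_eq_zero_of_natDegree_lt (by rw [g.1.2]; exact hgt)]
  refine (Nat.card_le_card_of_injective φ hφ).trans (le_of_eq ?_)
  rw [card_twisted_invariant Fin.rev Fin.rev_rev (fun x => a * σ x)
    (fun x => by rw [map_mul, hσσ, ← mul_assoc, haa, one_mul]),
    Nat.card_eq_fintype_card (α := K), hK]
  have hfix : Nat.card {x : K // a * σ x = x} = q := by
    obtain ⟨e, he0, he⟩ := exists_div_conj_eq hK (c := a) haa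
    have hσe : σ e ≠ 0 := (map_ne_zero σ).2 he0
    have he' : a * σ e = e := by rw [← he, div_mul_cancel₀ _ hσe]
    refine Eq.trans (Nat.card_congr (Equiv.subtypeEquiv (Equiv.mulLeft₀ e⁻¹ (inv_ne_zero he0)) fun x => ?_))
      (H3.card_fixed hK)
    rw [← H3.conjQ_apply hK, ← hσ]
    show a * σ x = x ↔ σ (e⁻¹ * x) = e⁻¹ * x
    rw [map_mul, map_inv₀]
    constructor
    · intro h
      field_simp
      linear_combination (σ e) * h - (σ x) * he'
    · intro h
      field_simp at h
      refine mul_left_cancel₀ hσe ?_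
      linear_combination h + (σ x) * he'
  rw [hfix, ← pow_mul, ← pow_add]
  refine congrArg _ ?_
  rw [Nat.card_eq_fintype_card, Nat.card_eq_fintype_card, Fintype.card_subtype, Fintype.card_subtype]
  have h3 : (Finset.univ.filter fun k : Fin m => k.rev < k).card =
      (Finset.univ.filter fun k : Fin m => k < k.rev).card :=
    Finset.card_equiv Fin.revPerm fun k => by simp [Fin.revPerm]
  have hsum : (Finset.univ.filter fun k : Fin m => k < k.rev).card +
      ((Finset.univ.filter fun k : Fin m => k.rev < k).card +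
        (Finset.univ.filter fun k : Fin m => k.rev = k).card) = m := by
    conv_rhs => rw [← Fintype.card_fin m, ← Finset.card_univ, Finset.card_eq_sum_ones]
    rw [Finset.card_filter, Finset.card_filter, Finset.card_filter, ← Finset.sum_add_distrib,
      ← Finset.sum_add_distrib]
    refine Finset.sum_congr rfl fun k _ => ?_
    rcases lt_trichotomy k k.rev with h | h | h
    · simp [h, h.not_gt, h.ne']
    · simp [← h]
    · simp [h, h.not_gt, h.ne]
  omega

/-- The degree vector of a tuple. -/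
noncomputable def degVec (T : ClassTuple K n n) : DegVec n :=
  ⟨fun j => ⟨(T.1 j).1.natDegree, by
    have h := Finset.single_le_sum (f := fun j : Fin n => ((j : ℕ) + 1) * (T.1 j).1.natDegree)
      (fun _ _ => Nat.zero_le _) (Finset.mem_univ j)
    rw [T.2] at h
    have := Nat.le_mul_of_pos_left (T.1 j).1.natDegree (Nat.succ_pos (j : ℕ))
    simp only [Nat.succ_eq_add_one] at this
    omega⟩, T.2⟩

/-- The self-dual tuples with given degree vector and constant product, against the weights. -/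
theorem mul_card_fibre_le (hK : Fintype.card K = q ^ 2) (v : DegVec n) (c : K)
    (A : Finset (ClassTuple K n n)) (hA : ∀ T ∈ A, degVec T = v ∧ constProd T = c ∧
      ∀ j, H67.dualPoly (H3.conjQ hK) (T.1 j).1 = (T.1 j).1) :
    (q + 1) * A.card ≤ uGam q v * uWeight q v := by
  classical
  rcases A.eq_empty_or_nonempty with rfl | ⟨T₀, hT₀⟩
  · simp
  set σ := H3.conjQ hK
  set N : Subgroup Kˣ := (powMonoidHom (q + 1) : Kˣ →* Kˣ).ker with hN
  have hNcard : Nat.card N = q + 1 := H3.card_norm_one_units hK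
  have := Fintype.ofFinite N
  set S := (Finset.univ : Finset (Fin n)).filter fun j => (v.1 j : ℕ) ≠ 0 with hS
  let χ : ({j // j ∈ S} → N) →* N :=
    { toFun := fun a => ∏ j, a j ^ ((j.1 : ℕ) + 1)
      map_one' := by simp
      map_mul' := fun a b => by simp [mul_pow, Finset.prod_mul_distrib] }
  -- the constants
  have hnorm : ∀ T ∈ A, ∀ j, Units.mk0 _ (T.1 j).2.2 ∈ N := fun T hT j => by
    refine MonoidHom.mem_ker.2 (Units.ext ?_)
    show (T.1 j).1.coeff 0 ^ (q + 1) = 1
    have h := H67.dualPoly_coeff_zero (σ := σ) (T.1 j).2.1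
    rw [(hA T hT).2.2 j] at h
    have hne : σ ((T.1 j).1.coeff 0) ≠ 0 := (map_ne_zero σ).2 (T.1 j).2.2
    rw [pow_succ, show (T.1 j).1.coeff 0 ^ q = σ ((T.1 j).1.coeff 0) from (H3.conjQ_apply hK _).symm]
    nth_rewrite 2 [h]
    exact mul_inv_cancel₀ hne
  let cst : {T // T ∈ A} → ({j // j ∈ S} → N) := fun T j => ⟨Units.mk0 _ (T.1.1 j.1).2.2, hnorm T.1 T.2 j.1⟩
  have hdeg : ∀ T ∈ A, ∀ j, (T.1 j).1.natDegree = (v.1 j : ℕ) := fun T hT j =>
    congrArg (fun u : DegVec n => (u.1 j : ℕ)) (hA T hT).1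
  have hχ : ∀ T, (((χ (cst T) : N) : Kˣ) : K) = c := fun T => by
    rw [← (hA T.1 T.2).2.1, constProd]
    show (((∏ j : {j // j ∈ S}, cst T j ^ ((j.1 : ℕ) + 1) : N) : Kˣ) : K) = _
    rw [Subgroup.val_finsetProd, Units.coe_prod,
      ← Finset.prod_subset (Finset.subset_univ S) (fun j _ hj => by
        have h0 : (T.1.1 j).1.natDegree = 0 := by
          rw [hdeg _ T.2]; simpa [hS] using hj
        rw [(T.1.1 j).2.1.natDegree_eq_zero.1 h0, coeff_one_zero, one_pow]),
      ← Finset.prod_coe_sort S]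
    refine Finset.prod_congr rfl fun j _ => ?_
    rw [SubmonoidClass.coe_pow, Units.val_pow_eq_pow_val]
    rfl
  set a₀ := cst ⟨T₀, hT₀⟩
  -- the fibres of constants
  have hfib : ∀ a : {j // j ∈ S} → N, ((Finset.univ : Finset {T // T ∈ A}).filter fun T => cst T = a).card ≤
      ∏ j : Fin n, q ^ ((v.1 j : ℕ) - 1) := by
    intro a
    let ext' : Fin n → K := fun j => if h : j ∈ S then ((a ⟨j, h⟩ : Kˣ) : K) else 1
    have := fun d => finite_upolyDeg (K := K) d
    let Φ : {T : {T // T ∈ A} // cst T = a} → ∀ j : Fin n,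
        {f : UPolyDeg K (v.1 j : ℕ) // H67.dualPoly σ f.1.1 = f.1.1 ∧ f.1.1.coeff 0 = ext' j} := fun T j =>
      ⟨⟨T.1.1.1 j, hdeg _ T.1.2 j⟩, (hA _ T.1.2).2.2 j, by
        show (T.1.1.1 j).1.coeff 0 = _
        simp only [ext']
        split_ifs with h
        · rw [← congrFun T.2 ⟨j, h⟩]
          rfl
        · have h0 : (T.1.1.1 j).1.natDegree = 0 := by
            rw [hdeg _ T.1.2]; simpa [hS] using h
          rw [(T.1.1.1 j).2.1.natDegree_eq_zero.1 h0, coeff_one_zero]⟩
    have hΦ : Function.Injective Φ := fun T T' h => by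
      refine Subtype.ext (Subtype.ext (Subtype.ext (funext fun j => ?_)))
      exact congrArg (fun x => x.1.1) (congrFun h j)
    have h := Nat.card_le_card_of_injective Φ hΦ
    rw [Nat.card_pi, Nat.card_eq_fintype_card, Fintype.card_subtype] at h
    exact h.trans (Finset.prod_le_prod' fun j _ => card_selfDual_le hK _ _)
  have hA1 : A.card ≤ Nat.card χ.ker * ∏ j : Fin n, q ^ ((v.1 j : ℕ) - 1) := by
    rw [← Fintype.card_coe A, ← Finset.card_univ,
      Finset.card_eq_sum_card_fiberwise (t := (Finset.univ : Finset ({j // j ∈ S} → N)).filter fun a => χ a = χ a₀)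
        (f := cst) (fun T _ => Finset.mem_filter.2 ⟨Finset.mem_univ _,
          Subtype.ext (Units.ext ((hχ T).trans (hχ _).symm))⟩)]
    refine (Finset.sum_le_card_nsmul _ _ _ fun a _ => hfib a).trans (le_of_eq ?_)
    rw [smul_eq_mul]
    congr 1
    rw [← Nat.card_eq_finsetCard]
    refine Nat.card_congr
      { toFun := fun a => ⟨a.1 * a₀⁻¹, by
          rw [MonoidHom.mem_ker, map_mul, map_inv, (Finset.mem_filter.1 a.2).2, mul_inv_cancel]⟩
        invFun := fun b => ⟨b.1 * a₀, Finset.mem_filter.2 ⟨Finset.mem_univ _, by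
          rw [map_mul, MonoidHom.mem_ker.1 b.2, one_mul]⟩⟩
        left_inv := fun a => Subtype.ext (inv_mul_cancel_right _ _)
        right_inv := fun b => Subtype.ext (mul_inv_cancel_right _ _) }
  -- the kernel
  have hker : (q + 1) * Nat.card χ.ker ≤ uGam q v * (q + 1) ^ S.card := by
    have h1 : Nat.card χ.ker * χ.ker.index = (q + 1) ^ S.card := by
      rw [Subgroup.card_mul_index, Nat.card_fun, hNcard, Nat.card_eq_finsetCard]
    have h2 : Nat.card χ.range * χ.range.index = q + 1 := by rw [Subgroup.card_mul_index, hNcard]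
    have h3 : χ.range.index ≤ uGam q v := by
      refine Nat.le_trans (Nat.le_of_dvd ?_ (Subgroup.index_dvd_of_le (?_ : (powMonoidHom (uGam q v) : N →* N).range ≤ χ.range))) ?_
      · exact Nat.pos_of_ne_zero Subgroup.index_ne_zero_of_finite
      · rintro _ ⟨b, rfl⟩
        refine pow_gcd_mem χ.range S _ (fun i hi d => ⟨Pi.mulSingle ⟨i, hi⟩ d, ?_⟩) (q + 1) (fun d => ?_) b
        · show ∏ j : {j // j ∈ S}, (Pi.mulSingle ⟨i, hi⟩ d : {j // j ∈ S} → N) j ^ ((j.1 : ℕ) + 1) = _
          rw [Finset.prod_eq_single (⟨i, hi⟩ : {j // j ∈ S}), Pi.mulSingle_eq_same]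
          · intro j _ hj
            rw [Pi.mulSingle_eq_of_ne hj, one_pow]
          · simp
        · rw [← hNcard, pow_card_eq_one']
          exact χ.range.one_mem
      · rw [IsCyclic.index_powMonoidHom_range]
        exact Nat.le_of_dvd (uGam_pos q v) (Nat.gcd_dvd_right _ _)
    rw [Subgroup.index_ker] at h1
    calc (q + 1) * Nat.card χ.ker = Nat.card χ.range * χ.range.index * Nat.card χ.ker := by rw [h2]
      _ = χ.range.index * (Nat.card χ.ker * Nat.card χ.range) := by ring
      _ ≤ _ := by rw [h1]; exact Nat.mul_le_mul_right _ h3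
  calc (q + 1) * A.card ≤ (q + 1) * (Nat.card χ.ker * ∏ j : Fin n, q ^ ((v.1 j : ℕ) - 1)) :=
        Nat.mul_le_mul_left _ hA1
    _ ≤ uGam q v * (q + 1) ^ S.card * ∏ j : Fin n, q ^ ((v.1 j : ℕ) - 1) := by
        rw [← mul_assoc]; exact Nat.mul_le_mul_right _ hker
    _ = _ := by
        rw [mul_assoc, hS, Finset.card_filter, ← Finset.prod_pow_eq_pow_sum, ← Finset.prod_mul_distrib, uWeight]
        refine congrArg _ (Finset.prod_congr rfl fun j _ => ?_)
        by_cases h : (v.1 j : ℕ) = 0 <;> simp [h]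

/-- The classes of `SU_n(q)` against the weights. -/
theorem mul_card_SU_le (hK : Fintype.card K = q ^ 2) (hn : 1 ≤ n) :
    (q + 1) * Nat.card (ConjClasses ↥(Cfsg.SU n K q)) ≤ uWeightSum q n := by
  classical
  obtain ⟨P, hconj, hdetg, hdet, hdec⟩ := exists_param (K := K) hn
  set σ := H3.conjQ hK with hσ
  set N : Subgroup Kˣ := (powMonoidHom (q + 1) : Kˣ →* Kˣ).ker with hN
  have hNcard : Nat.card N = q + 1 := H3.card_norm_one_units hK
  set ρ := H3.suToGU n K q
  have := Fintype.ofFinite (ConjClasses ↥(Cfsg.SU n K q))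
  let G : ConjClasses ↥(Cfsg.SU n K q) → ↥(Cfsg.GU n K q) := fun C => ρ C.out
  let Tof : ConjClasses ↥(Cfsg.SU n K q) → ClassTuple K n n := fun C => P (G C : GL (Fin n) K)
  set A := (Finset.univ : Finset (ClassTuple K n n)).filter fun T => constProd T = (-1 : K) ^ n ∧
      ∀ j, H67.dualPoly σ (T.1 j).1 = (T.1 j).1 with hA
  have hmem : ∀ C ∈ (Finset.univ : Finset (ConjClasses ↥(Cfsg.SU n K q))), Tof C ∈ A := by
    intro C _
    refine Finset.mem_filter.2 ⟨Finset.mem_univ _, ?_, fun j => ?_⟩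
    · have h := hdetg (G C : GL (Fin n) K)
      rw [show ((G C : GL (Fin n) K) : Matrix (Fin n) (Fin n) K) =
        ((C.out : Matrix.SpecialLinearGroup (Fin n) K) : Matrix (Fin n) (Fin n) K) from H3.suToGU_val _,
        (C.out : Matrix.SpecialLinearGroup (Fin n) K).2] at h
      have h2 := congrArg (fun t => (-1 : K) ^ n * t) h
      simp only [mul_one, ← mul_assoc, ← pow_add, ← two_mul, pow_mul, neg_one_sq, one_pow, one_mul] at h2
      exact h2.symm
    · obtain ⟨ι, _, p, e, hd, hf⟩ := hdec (G C : GL (Fin n) K)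
      show H67.dualPoly σ ((P (G C : GL (Fin n) K)).1 j).1 = _
      rw [show (Tof C).1 j = (P (G C : GL (Fin n) K)).1 j from rfl, hf j]
      have hg := (mem_GU_iff σ (H3.conjQ_apply hK) (H3.conjQ_conjQ hK) (G C : GL (Fin n) K)).1 (G C).2
      refine dualPoly_prod_eq σ (H3.conjQ_conjQ hK) (G C : GL (Fin n) K) hg hd (fun i h0 => ?_) (j : ℕ)
      have hdv : p i ∣ ((G C : GL (Fin n) K) : Matrix (Fin n) (Fin n) K).charpoly := by
        rw [← Matrix.charpoly_toLin', hd.charpoly_eq]
        exact (dvd_pow_self _ (by have := hd.pos i; omega)).trans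
          (Finset.dvd_prod_of_mem (fun j => p j ^ e j) (Finset.mem_univ i))
      obtain ⟨f, hf'⟩ := hdv
      have h := Matrix.det_eq_sign_charpoly_coeff ((G C : GL (Fin n) K) : Matrix (Fin n) (Fin n) K)
      rw [hf', mul_coeff_zero, h0, zero_mul, mul_zero] at h
      exact Matrix.GeneralLinearGroup.det_ne_zero (G C : GL (Fin n) K) h
  -- the fibres
  have hfib : ∀ T ∈ A, ((Finset.univ : Finset (ConjClasses ↥(Cfsg.SU n K q))).filter fun C => Tof C = T).card ≤
      uGam q (degVec T) := by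
    intro T _
    set F := (Finset.univ : Finset (ConjClasses ↥(Cfsg.SU n K q))).filter fun C => Tof C = T with hF
    rcases F.eq_empty_or_nonempty with h0 | ⟨C₀, hC₀⟩
    · rw [h0]; exact Nat.zero_le _
    set g₀ := G C₀ with hg₀
    have hT : P (g₀ : GL (Fin n) K) = T := (Finset.mem_filter.1 hC₀).2
    have hy : ∀ C : {C // C ∈ F}, ∃ y : ↥(Cfsg.GU n K q), y * g₀ * y⁻¹ = G C.1 :=
      fun C => isConj_iff.1 (gu_isConj_of_isConj hK _ _
        (hconj _ _ (hT.trans (Finset.mem_filter.1 C.2).2.symm)))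
    choose y hy using hy
    have hdN : ∀ w : ↥(Cfsg.GU n K q), Matrix.GeneralLinearGroup.det (w : GL (Fin n) K) ∈ N := fun w => by
      refine MonoidHom.mem_ker.2 (Units.ext ?_)
      show ((w : GL (Fin n) K) : Matrix (Fin n) (Fin n) K).det ^ (q + 1) = 1
      have h := congrArg Matrix.det ((mem_GU_iff σ (H3.conjQ_apply hK) (H3.conjQ_conjQ hK) _).1 w.2)
      rw [Matrix.det_mul, Matrix.det_one, sigAdj, Matrix.det_transpose, ← RingHom.mapMatrix_apply,
        ← RingHom.map_det, H3.conjQ_apply] at h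
      rw [pow_succ]
      exact h
    let dN : ↥(Cfsg.GU n K q) →* N :=
      { toFun := fun w => ⟨Matrix.GeneralLinearGroup.det (w : GL (Fin n) K), hdN w⟩
        map_one' := Subtype.ext (map_one _)
        map_mul' := fun a b => Subtype.ext (map_mul _ _ _) }
    let D : Subgroup N := (Subgroup.centralizer ({g₀} : Set ↥(Cfsg.GU n K q))).map dN
    have hD : (powMonoidHom (uGam q (degVec T)) : N →* N).range ≤ D := by
      rintro _ ⟨b, rfl⟩
      have hgcd : uGam q (degVec T) = Nat.gcd (({()} : Finset Unit).gcd fun _ => gam T) (q + 1) := by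
        rw [Finset.gcd_singleton, normalize_eq, uGam, gam, supp, Nat.gcd_assoc,
          Nat.gcd_comm (Fintype.card K - 1), Nat.gcd_eq_left (m := q + 1) (n := Fintype.card K - 1)]
        · rfl
        · rw [hK]
          exact ⟨q - 1, by have := Nat.sq_sub_sq q 1; simpa [one_pow] using this⟩
      show b ^ uGam q (degVec T) ∈ D
      rw [hgcd]
      refine pow_gcd_mem D _ _ (fun _ _ t => ?_) _ (fun t => by rw [← hNcard, pow_card_eq_one']; exact D.one_mem) b
      obtain ⟨d, hd0, hd⟩ := exists_div_conj_eq hK (c := ((t : Kˣ) : K)) (by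
        have ht : ((t : Kˣ) : K) ^ (q + 1) = 1 := congrArg Units.val (MonoidHom.mem_ker.1 t.2)
        rw [H3.conjQ_apply, ← pow_succ']
        exact ht)
      obtain ⟨z, hz, hzd⟩ := hdet (g₀ : GL (Fin n) K) (Units.mk0 d hd0)
      rw [hT] at hzd
      obtain ⟨w, hw, hwd⟩ := exists_unitary_commute_det hK g₀ z hz
      refine ⟨w, Subgroup.mem_centralizer_singleton_iff.2 hw, Subtype.ext (Units.ext ?_)⟩
      show ((w : GL (Fin n) K) : Matrix (Fin n) (Fin n) K).det = _
      rw [hwd, hzd, SubmonoidClass.coe_pow, Units.val_pow_eq_pow_val, Units.val_pow_eq_pow_val,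
        Units.val_mk0, map_pow, ← div_pow, hd]
    let Φ : {C // C ∈ F} → N ⧸ D := fun C => QuotientGroup.mk (dN (y C))
    have hΦ : Function.Injective Φ := by
      intro C C' h
      obtain ⟨w, hw, hwd⟩ := QuotientGroup.eq.1 h
      have hwg : w * g₀ = g₀ * w := Subgroup.mem_centralizer_singleton_iff.1 hw
      set u := y C' * (y C * w)⁻¹ with hu
      have hud : dN u = 1 := by
        rw [hu, map_mul, map_inv, map_mul, hwd, mul_inv_cancel_left, mul_inv_cancel]
      have hconj' : u * G C.1 * u⁻¹ = G C'.1 := by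
        rw [← hy C, ← hy C', hu]
        have : w⁻¹ * g₀ * w = g₀ := by rw [mul_assoc, ← hwg, inv_mul_cancel_left]
        calc _ = y C' * (w⁻¹ * g₀ * w) * (y C')⁻¹ := by group
          _ = _ := by rw [this]
      have hmemu : u ∈ ρ.range := by
        rw [H3.range_suToGU]
        refine Units.ext ?_
        exact congrArg (fun x : N => ((x : Kˣ) : K)) hud
      obtain ⟨u', hu'⟩ := hmemu
      refine Subtype.ext ?_
      rw [← Quotient.out_eq C.1, ← Quotient.out_eq C'.1]
      exact ConjClasses.mk_eq_mk_iff_isConj.2 (isConj_iff.2 ⟨u', H3.suToGU_injective n (by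
        rw [map_mul, map_mul, map_inv, hu']; exact hconj')⟩)
    refine le_trans (le_of_eq (Nat.card_eq_finsetCard F).symm) ((Nat.card_le_card_of_injective Φ hΦ).trans ?_)
    show D.index ≤ _
    refine le_trans (Nat.le_of_dvd ?_ (Subgroup.index_dvd_of_le hD)) ?_
    · exact Nat.pos_of_ne_zero Subgroup.index_ne_zero_of_finite
    · rw [IsCyclic.index_powMonoidHom_range]
      exact Nat.le_of_dvd (uGam_pos q _) (Nat.gcd_dvd_right _ _)
  rw [Nat.card_eq_fintype_card, ← Finset.card_univ, Finset.card_eq_sum_card_fiberwise hmem, uWeightSum]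
  calc (q + 1) * ∑ T ∈ A, ((Finset.univ : Finset (ConjClasses ↥(Cfsg.SU n K q))).filter fun C => Tof C = T).card
      ≤ (q + 1) * ∑ T ∈ A, uGam q (degVec T) := Nat.mul_le_mul_left _ (Finset.sum_le_sum hfib)
    _ = ∑ v : DegVec n, uGam q v * ((q + 1) * (A.filter fun T => degVec T = v).card) := by
        rw [← Finset.sum_fiberwise A degVec, Finset.mul_sum]
        refine Finset.sum_congr rfl fun v _ => ?_
        rw [Finset.sum_congr rfl fun T hT => by rw [(Finset.mem_filter.1 hT).2], Finset.sum_const, smul_eq_mul]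
        ring
    _ ≤ ∑ v : DegVec n, uGam q v ^ 2 * uWeight q v := Finset.sum_le_sum fun v _ => by
        rw [pow_two, mul_assoc]
        refine Nat.mul_le_mul_left _ (mul_card_fibre_le hK v ((-1 : K) ^ n) _ fun T hT => ?_)
        obtain ⟨hT1, hT2⟩ := Finset.mem_filter.1 hT
        exact ⟨hT2, (Finset.mem_filter.1 hT1).2.1, (Finset.mem_filter.1 hT1).2.2⟩

end Cfsg.Agent.H62.ClassNumber
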